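import Cfsg.Agent.LS.Defs2
import Cfsg.Agent.H40.AutBase
import Cfsg.Agent.S1080

/-! Standard subgroups isomorphic to `G₂(4)`: vocabulary (notes/LG.md). -/

set_option autoImplicit false

namespace Cfsg.Agent.LG

open Subgroup H29

abbrev F : Type := F4

/-- a primitive cube root of unity -/
abbrev ω : F := F4.w

abbrev P : Type := ↥(Cfsg.Lie.chevG2.group F)

/-- root elements; `6 = b`, `7 = a`, `8 = a+b`, `9 = 2a+b`, `10 = 3a+b`, `11 = 3a+2b`, `11 - r = -r` -/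
noncomputable def xr (r : Fin 12) (t : F) : P :=
  ⟨(H37.matRel H40.isChev_G2 F).x r t, H40.x_mem_group H40.isChev_G2 r.2 t⟩

/-- coordinates on `T / Z` -/
abbrev V4 : Type := F × F × F × F

/-- the elements of `T = O₂(C(z))` -/
noncomputable def tt (v : V4) (c : F) : P :=
  xr 6 v.1 * xr 8 v.2.1 * xr 9 v.2.2.1 * xr 10 v.2.2.2 * xr 11 c

/-- the elements of the Sylow 2-subgroup `U` -/
noncomputable def uu (t : F) (v : V4) (c : F) : P := xr 7 t * tt v c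

noncomputable def na : P := xr 7 1 * xr 4 1 * xr 7 1

noncomputable def nb : P := xr 6 1 * xr 5 1 * xr 6 1

/-- `tt v c ↦ tt (ω • v) (ω² c)` -/
noncomputable def hh : P :=
  xr 11 ω * xr 0 (ω * ω) * xr 11 ω * (xr 11 1 * xr 0 1 * xr 11 1)

/-- `xr 7 t ↦ xr 7 (ω t)`; centralises the long root elements -/
noncomputable def h2 : P := xr 7 (ω * ω) * xr 4 ω * xr 7 (ω * ω) * na

theorem exists_fr : ∃ φ : MulAut P, ∀ r t, φ (xr r t) = xr r (t * t) := by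
  obtain ⟨α, h⟩ := S1080.result Lie.chevG2 (by simp) LS.frob
  exact ⟨α, fun r t => Subtype.ext (Units.ext (h (xr r t) r t r.2 rfl))⟩

/-- the field automorphism -/
noncomputable def fr : MulAut P := exists_fr.choose

/-- `C = C_L(z)` -/
noncomputable def Cz : Subgroup P := centralizer {xr 11 1}

/-- long root involutions -/
def Lg (p : P) : Prop := ∃ g, p = g * xr 11 1 * g⁻¹

/-- short root involutions -/
def Sh (p : P) : Prop := ∃ g, p = g * xr 9 1 * g⁻¹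

def InU (p : P) : Prop := ∃ t v c, p = uu t v c

def InT (p : P) : Prop := ∃ v c, p = tt v c

/-- `E = C_U(V)` -/
def InE (p : P) : Prop := ∃ t b c d e, p = uu t (0, b, c, d) e

def InV (p : P) : Prop := ∃ d e, p = tt (0, 0, 0, d) e

def InZ (p : P) : Prop := ∃ c, p = xr 11 c

def q4 (v : V4) : F := v.1 * v.2.2.2 + v.2.1 * v.2.2.1

def b4 (v w : V4) : F := v.1 * w.2.2.2 + w.1 * v.2.2.2 + v.2.1 * w.2.2.1 + w.2.1 * v.2.2.1

/-- the cocycle of `T` -/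
def be (v w : V4) : F := v.2.2.2 * w.1 + v.2.2.1 * w.2.1

/-- the action of `xr 7 t` -/
def ra (t : F) (v : V4) : V4 :=
  (v.1, v.2.1 + t * v.1, v.2.2.1 + t * t * v.1, v.2.2.2 + t * t * t * v.1 + t * t * v.2.1 + t * v.2.2.1)

/-- the central correction in the action of `xr 7 t` -/
def ka (t : F) (v : V4) : F :=
  t * t * t * (v.1 * v.1) + t * (v.2.1 * v.2.1) + t * t * (v.1 * v.2.1)

/-- the action of `na` -/
def sw (v : V4) : V4 := (v.2.2.2, v.2.2.1, v.2.1, v.1)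

/-- the action of `h2` -/
def rh (v : V4) : V4 := (v.1, ω * v.2.1, ω * ω * v.2.2.1, v.2.2.2)

/-- the action of `fr` -/
def fb (v : V4) : V4 := (v.1 * v.1, v.2.1 * v.2.1, v.2.2.1 * v.2.2.1, v.2.2.2 * v.2.2.2)

/-! ### coordinates on `D / Z` -/

/-- `(v, ρ, σ)` -/
abbrev V6 : Type := V4 × F × F

def q6 (v : V6) : F := q4 v.1 + v.2.1 * v.2.2

def b6 (v w : V6) : F := b4 v.1 w.1 + v.2.1 * w.2.2 + w.2.1 * v.2.2

/-- the semilinear involution whose fixed points are the rational vectors -/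
def sg (v : V6) : V6 :=
  ((v.1.1 * v.1.1, v.1.2.2.1 * v.1.2.2.1, v.1.2.1 * v.1.2.1, v.1.2.2.2 * v.1.2.2.2),
    v.2.2 * v.2.2, v.2.1 * v.2.1)

/-- the Siegel transformations fixing the fourth basis vector -/
def f1 (k μ : F) (v : V6) : V6 :=
  ((v.1.1, v.1.2.1, v.1.2.2.1,
      v.1.2.2.2 + k * (μ * μ * μ) * v.1.1 + μ * v.2.1 + k * (μ * μ) * v.2.2),
    v.2.1 + k * (μ * μ) * v.1.1, v.2.2 + μ * v.1.1)

/-- a map on `T / Z` extended to `D / Z` -/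
def up (f : V4 → V4) (v : V6) : V6 := (f v.1, v.2)

def rot (ν : F) (v : V6) : V6 := (v.1, ν * v.2.1, ν * ν * v.2.2)

/-- the eight points; `pt i + pt j` are the 28 nonsingular rational vectors -/
def pt : Fin 8 → V6 :=
  ![((1, 0, 0, 1), 0, 0), ((1, 1, 1, 0), 0, 0), ((1, ω, ω * ω, 0), 0, 0), ((1, ω * ω, ω, 0), 0, 0),
    ((0, 0, 0, 0), 0, 0), ((0, 0, 0, 1), 1, 1), ((0, 0, 0, 1), ω, ω * ω), ((0, 0, 0, 1), ω * ω, ω)]

/-- `v = ∑ co v i • pt i` with `∑ co v i = 0` -/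
def co (v : V6) : Fin 8 → F :=
  ![v.1.2.2.2 + (ω * v.2.1 + ω * ω * v.2.2),
    v.1.1 + v.1.2.1 + v.1.2.2.1 + v.1.2.2.2 + (ω * v.2.1 + ω * ω * v.2.2),
    v.1.1 + ω * ω * v.1.2.1 + ω * v.1.2.2.1 + v.1.2.2.2 + (ω * v.2.1 + ω * ω * v.2.2),
    v.1.1 + ω * v.1.2.1 + ω * ω * v.1.2.2.1 + v.1.2.2.2 + (ω * v.2.1 + ω * ω * v.2.2),
    v.1.1 + (ω * v.2.1 + ω * ω * v.2.2), ω * ω * v.2.1 + ω * v.2.2, v.2.1 + v.2.2, 0]

abbrev S8 : Type := Equiv.Perm (Fin 8)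

/-- the action of `S₈ = O₆⁺(2)` -/
def pm (π : S8) (v : V6) : V6 := ∑ i, co v i • pt (π i)

def Evn (π : S8) : Prop := Equiv.Perm.sign π = 1

/-- the permutations induced by `C_L(z)` -/
def Fx3 (π : S8) : Prop := π 5 = 5 ∧ π 6 = 6 ∧ π 7 = 7

def mkP (l : Fin 8 → Fin 8) (h : ∀ i, l (l i) = i) : S8 := ⟨l, l, h, h⟩

/-- `up (ra t)` -/
def pA : F → S8
  | .o => 1
  | .i => mkP ![1, 0, 3, 2, 4, 5, 6, 7] (by decide)
  | .w => mkP ![2, 3, 0, 1, 4, 5, 6, 7] (by decide)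
  | .v => mkP ![3, 2, 1, 0, 4, 5, 6, 7] (by decide)

/-- `f1 1 μ` -/
def pB : F → S8
  | .o => 1
  | .i => mkP ![0, 1, 2, 3, 5, 4, 7, 6] (by decide)
  | .w => mkP ![0, 1, 2, 3, 7, 6, 5, 4] (by decide)
  | .v => mkP ![0, 1, 2, 3, 6, 7, 4, 5] (by decide)

/-- `up sw` -/
def pW : S8 := mkP ![4, 1, 3, 2, 0, 5, 6, 7] (by decide)

/-- `up rh` -/
def pH : S8 := Equiv.swap 1 2 * Equiv.swap 2 3

/-- `rot ω` -/
def pR : S8 := Equiv.swap 5 6 * Equiv.swap 6 7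

/-- `((a, b, c, d), ρ, σ) ↦ ((a, ρ, σ, d), b, c)` -/
def pM : S8 := mkP ![4, 5, 6, 7, 0, 1, 2, 3] (by decide)

/-- `((a, b, c, d), ρ, σ) ↦ ((a, σ, ρ, d), c, b)` -/
def pO : S8 := mkP ![4, 5, 7, 6, 0, 1, 3, 2] (by decide)

/-- `((a, b, c, d), ρ, σ) ↦ ((a, c, b, d), σ, ρ)` -/
def pS : S8 := mkP ![0, 1, 3, 2, 4, 5, 7, 6] (by decide)

/-- the 105 vectors on the rational singular points -/
def NV (v : V6) : Prop := v ≠ 0 ∧ q6 v = 0 ∧ ∃ l : F, sg v = l • v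

instance (v : V6) : Decidable (NV v) := inferInstanceAs (Decidable (_ ∧ _))

/-- the 336 singular vectors on anisotropic rational lines -/
def DV (v : V6) : Prop := q6 v = 0 ∧ q6 (v + sg v) = 1

instance (v : V6) : Decidable (DV v) := inferInstanceAs (Decidable (_ ∧ _))

/-- the other 630 singular vectors -/
def CV (v : V6) : Prop := v ≠ 0 ∧ q6 v = 0 ∧ ¬ NV v ∧ ¬ DV v

instance (v : V6) : Decidable (CV v) := inferInstanceAs (Decidable (_ ∧ _))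

export LS (Lam ml)

/-! ### frames -/

variable {G : Type*} [Group G]

/-- `C(L)` -/
abbrev Kc (ι : P →* G) : Subgroup G := centralizer (ι.range : Set G)

/-- `N(L)` -/
abbrev Nn (ι : P →* G) : Subgroup G := normalizer (ι.range : Set G)

def cj (g : G) (ι : P →* G) : P →* G := (MulAut.conj g).toMonoidHom.comp ι

def tw (ι : P →* G) (β : MulAut P) : P →* G := ι.comp β.toMonoidHom

/-- `L = ι.range` is standard -/
structure Hy (ι : P →* G) : Prop where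
  inj : Function.Injective ι
  ti : ∀ g, ∀ k ∈ Kc ι, k * k = 1 → k ≠ 1 → g * k * g⁻¹ ∈ Kc ι → g ∈ Nn ι
  std : ∀ g, ¬ ∀ p p', Commute (ι p) (g * ι p' * g⁻¹)
  ev : ∃ k ∈ Kc ι, k * k = 1 ∧ k ≠ 1

/-- `ι'` is a frame of a conjugate of `L` -/
def Fr (ι ι' : P →* G) : Prop := ∃ g β, ι' = cj g (tw ι β)

/-- the involutions in the conjugates of `C(L)` -/
def DD (ι : P →* G) (d : G) : Prop := d * d = 1 ∧ d ≠ 1 ∧ ∃ g, g * d * g⁻¹ ∈ Kc ι

/-- `n` induces an inner automorphism on `L` -/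
def Inn (ι : P →* G) (n : G) : Prop := ∃ p, ∃ k ∈ Kc ι, n = ι p * k

/-- `J` is the simple generalized Fitting subgroup of `G` and contains `L` -/
structure Amb (ι : P →* G) (J : Subgroup G) : Prop where
  nrm : J.Normal
  simple : IsSimpleGroup J
  le : ι.range ≤ J
  cen : centralizer (J : Set G) = ⊥

/-- a frame, a parametrisation of a Sylow 2-subgroup `R` of `K = C(L)`, and `g` with `R^g ≤ R Z` -/
structure Dat (G : Type*) [Group G] where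
  ι : P →* G
  e : Bool
  r : F → G
  g : G

namespace Dat

variable (δ : Dat G)

noncomputable def T (v : V4) (c : F) : G := δ.ι (tt v c)

noncomputable def C (c : F) : G := δ.ι (xr 11 c)

noncomputable def z : G := δ.C 1

noncomputable def h : G := δ.ι hh

noncomputable def w : G := δ.ι nb

def t : G := δ.r 1

def cj (m : G) : Dat G := ⟨LG.cj m δ.ι, δ.e, fun ρ => m * δ.r ρ * m⁻¹, m * δ.g * m⁻¹⟩

structure OK : Prop where
  hy : Hy δ.ι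
  rK : ∀ ρ, δ.r ρ ∈ Kc δ.ι
  radd : ∀ a b, Lam δ.e a → Lam δ.e b → δ.r (a + b) = δ.r a * δ.r b
  rne : ∀ a, Lam δ.e a → a ≠ 0 → δ.r a ≠ 1
  gC : ∀ p ∈ Cz, ∃ p' ∈ Cz, δ.g * δ.ι p * δ.g⁻¹ = δ.ι p'
  gR : ∀ ρ, Lam δ.e ρ → δ.r ρ * δ.C ρ ∈ Kc (LG.cj δ.g δ.ι)
  cen : ∀ k ∈ Kc δ.ι, Commute k δ.t → ∃ ρ, Lam δ.e ρ ∧ k * δ.r ρ ∈ Kc (LG.cj δ.g δ.ι)
  syl : ∀ k ∈ Kc δ.ι, k * k = 1 → ∃ m ∈ Kc δ.ι, ∃ ρ, Lam δ.e ρ ∧ m * k * m⁻¹ = δ.r ρ

/-- the elements of odd order in `C_K(R)` -/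
def Od (o : G) : Prop := o ∈ Kc δ.ι ∧ (∀ ρ, Lam δ.e ρ → Commute o (δ.r ρ)) ∧ Odd (orderOf o)

def CO (x : G) : Prop := ∀ o, δ.Od o → Commute x o

/-- translations on the conjugates of `R` in `R V` -/
def Tr (x : G) (μ σ : F) : Prop := (∀ p, InE p → Commute x (δ.ι p)) ∧
  ∀ ρ, Lam δ.e ρ → x * δ.r ρ * x⁻¹ = δ.r ρ * δ.T (0, 0, 0, ρ * μ) (ρ * σ)

/-- the elements of `Q₁` -/
def Qx (x : G) (μ σ : F) : Prop := δ.Tr x μ σ ∧ δ.CO x ∧ x ^ 4 = 1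

/-- the elements of `T₁` -/
def Ty (y : G) (σ : F) : Prop := (∀ p ∈ Cz, Commute y (δ.ι p)) ∧
  (∀ ρ, Lam δ.e ρ → y * δ.r ρ * y⁻¹ = δ.r ρ * δ.C (ρ * σ)) ∧ δ.CO y ∧ y ^ 4 = 1

/-- the norm map of `h` -/
noncomputable def nm (x : G) : G := x * (δ.h * x * δ.h⁻¹) * (δ.h⁻¹ * x * δ.h)

/-- the elements of `W = [T₁, h]` -/
def Wy (y : G) (σ : F) : Prop := δ.Ty y σ ∧ ∃ c, δ.nm y = δ.C c

/-- the elements of `D = T T₁` with their coordinates modulo `Z` -/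
def InD (d : G) (v : V6) : Prop := Lam δ.e v.2.1 ∧
  ∃ c y, δ.Wy y v.2.2 ∧ d = δ.T v.1 c * δ.r v.2.1 * y

/-- `n` normalises `D` and acts as `f` on `D / Z` -/
def Ac (n : G) (f : V6 → V6) : Prop := ∀ d v, δ.InD d v → δ.InD (n * d * n⁻¹) (f v)

def ND (n : G) : Prop := ∀ d v, δ.InD d v → ∃ v', δ.InD (n * d * n⁻¹) v'

def CZ (n : G) : Prop := ∀ c, Commute n (δ.C c)

def NZ (n : G) : Prop := ∀ c, ∃ c', n * δ.C c * n⁻¹ = δ.C c'

/-- the elements of `N(Z) ∩ C(z)` -/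
def MM (n : G) : Prop := δ.NZ n ∧ Commute n δ.z

/-- the action of `Q₁` on `D / Z` -/
structure Kk (k : F) : Prop where
  ok : δ.OK
  a1 : ∀ x μ σ, δ.Qx x μ σ → δ.Ac x (f1 k μ)

/-- the Conway configuration -/
def CI : Prop := δ.Kk 1 ∧ δ.e = true

def Dg : Subgroup G := closure {d | ∃ v, δ.InD d v}

def Wg : Subgroup G := closure {y | ∃ σ, δ.Wy y σ}

/-- the normal closure of `L` -/
def Jn : Subgroup G := normalClosure (δ.ι.range : Set G)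

/-- `m` realises the permutation `π` -/
structure Rz (m : G) (π : S8) : Prop where
  cz : δ.CZ m
  co : δ.CO m
  jn : m ∈ δ.Jn
  ac : δ.Ac m (pm π)

/-- the candidate for `O₂(C(z))` -/
def Qg : Subgroup G :=
  closure {n | (∃ v, sg v = v ∧ δ.InD n v) ∨ δ.MM n ∧ (n * n = 1 ∨ n * n = δ.z) ∧ δ.Ac n sg}

/-- `g ∈ C(z) ∩ N(V)` moves `R` to `X_a` and `X_{2a+b}` into `Q₁` -/
structure H0 (g : G) : Prop where
  ci : δ.CI
  co : δ.CO g
  jn : g ∈ δ.Jn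
  gz : Commute g δ.z
  g10 : ∀ d, Commute g (δ.T (0, 0, 0, d) 0)
  gV : ∃ β, g * δ.C ω * g⁻¹ = δ.T (0, 0, 0, β) ω
  gr : ∀ ρ, ∃ c, g * δ.r ρ * g⁻¹ = δ.ι (uu ρ (0, 0, 0, c) 0)
  g9 : ∀ c, δ.Qx (g * δ.ι (xr 9 c) * g⁻¹) c 0

/-- `τ = g x_b(1) g⁻¹` acts as `sg` -/
structure Hp (g τ : G) : Prop extends δ.H0 g where
  tL : τ = g * δ.T (1, 0, 0, 0) 0 * g⁻¹
  gw : g * δ.C ω * g⁻¹ = δ.T (0, 0, 0, 1) ω
  tC : ∀ c, τ * δ.C c * τ⁻¹ = δ.C (c * c)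
  ac : δ.Ac τ sg

/-- `N(Q) ∩ C(z)` -/
def HQ (n : G) : Prop := Commute n δ.z ∧ n ∈ normalizer (δ.Qg : Set G)

/-- `x` commutes modulo `z` with a conjugate of `t` in `N(Q) ∩ C(z)` -/
def Gd (x : G) : Prop := ∃ s, (DD δ.ι s ∧ δ.HQ s) ∧ s * x * s⁻¹ * x⁻¹ ∈ zpowers δ.z

end Dat

/-- the shape of `O₂` of the long root parabolic of `G₂(16)` or `G₂(4) × G₂(4)` -/
structure UW (U W : Subgroup G) : Prop where
  le : W ≤ U
  cU : Nat.card U = 2 ^ 20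
  cW : Nat.card W = 16
  cen : ∀ w ∈ W, ∀ x ∈ U, Commute w x
  el : ∀ w ∈ W, w * w = 1
  sq : ∀ x ∈ U, x * x ∈ W

/-- coordinates for this group over `F[θ] / (θ² + θ + B)` -/
structure Co (B : F) (X : F → F × F → G) (Y : F × F → G) : Prop where
  x : ∀ c α β, X c (α + β) = X c α * X c β
  y : ∀ α β, Y (α + β) = Y α * Y β
  cm : ∀ c c', c ≠ c' → ∀ α β, X c α * X c' β = X c' β * X c α * Y (ml B α β)
  cy : ∀ c α γ, Commute (Y γ) (X c α)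
  inj : ∀ η, Y η = 1 → η = 0

def CoU (X : F → F × F → G) (Y : F × F → G) : Subgroup G :=
  closure ({x | ∃ c α, x = X c α} ∪ Set.range Y)

def CoW (Y : F × F → G) : Subgroup G := closure (Set.range Y)

namespace Dat

variable (δ : Dat G)

/-- `Y` parametrises `W` -/
structure Yp (Y : F × F → G) : Prop where
  add : ∀ α β, Y (α + β) = Y α * Y β
  wy : ∀ γ, δ.Wy (Y γ) γ.2
  z : ∀ c, Y (c, 0) = δ.C c
  h : ∀ γ, δ.h * Y γ * δ.h⁻¹ = Y ((ω * ω) • γ)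

/-- the conjugates of `W` that meet `T` in `X_{3a+b}` and in the conjugates of `X_b` under `X_a` -/
noncomputable def Xi (Y : F × F → G) (α : F × F) : G := δ.w * Y α * δ.w⁻¹

noncomputable def Xc (Y : F × F → G) (c : F) (α : F × F) : G :=
  δ.ι (xr 7 c * na) * δ.Xi Y α * (δ.ι (xr 7 c * na))⁻¹

/-- the doubling `U₀` of `T` in the case `k = 0` -/
structure Dbl (U W : Subgroup G) : Prop where
  kk : δ.Kk 0
  ef : δ.e = false
  uw : UW U W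
  mW : ∀ y, y ∈ W ↔ ∃ σ, δ.Wy y σ
  mT : ∀ v c, δ.T v c ∈ U
  co : ∀ x ∈ U, δ.CO x
  tr : ∀ v : V4, ∃ n ∈ U, δ.InD (n * δ.t * n⁻¹) (v, 1, q4 v)
  nt : δ.t ∈ normalizer (U : Set G)
  nU : ∀ p, InU p → δ.ι p ∈ normalizer (U : Set G)
  nW : normalizer (U : Set G) ≤ normalizer (W : Set G)
  cyc : ∀ S : Subgroup G, IsPGroup 2 S → S ≤ normalizer (U : Set G) →
    ∃ S₀ : Subgroup G, S₀ ≤ S ∧ ∃ _ : (S₀.subgroupOf S).Normal, IsCyclic (S ⧸ S₀.subgroupOf S) ∧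
      ∀ m ∈ normalizer (U : Set G), m * δ.t * m⁻¹ ∉ S₀

end Dat

end Cfsg.Agent.LG
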