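import Cfsg.Agent.LG.Defs

/-! Standard subgroups isomorphic to `G₂(4)`: more vocabulary (notes/LG.md). -/

set_option autoImplicit false

namespace Cfsg.Agent.LG

open Subgroup

variable {G : Type*} [Group G]

namespace Dat

variable (δ : Dat G)

/-- `O = O(C_K(R))` -/
def Og : Subgroup G := closure {o | δ.Od o}

/-- `Z` -/
def Zg : Subgroup G := closure (Set.range δ.C)

/-- the noncentral involutions of `Q` -/
def QI (s : G) : Prop := s ∈ δ.Qg ∧ s * s = 1 ∧ s ≠ 1 ∧ s ≠ δ.z

end Dat

end Cfsg.Agent.LG
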