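import Cfsg.Agent.LG.Defs
import Cfsg.Agent.LS.FP
import Cfsg.Agent.LS.EXl

/-! Project LG (notes/LG.md): the unique fixed point argument. -/

set_option autoImplicit false
set_option linter.unusedVariables false

namespace Cfsg.Agent.LG

open Subgroup H29
open scoped commutatorElement

namespace FPX

/-- counting cosets along a map -/
theorem idx {G : Type*} [Group G] [Finite G] {A B X R : Subgroup G} (hX : X ≤ A) (hR : R ≤ B) (φ : G → G)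
    (hφ : ∀ b ∈ A, φ b ∈ B) (h : ∀ b ∈ A, ∀ b' ∈ A, (φ b)⁻¹ * φ b' ∈ R → b⁻¹ * b' ∈ X) :
    Nat.card A * Nat.card R ≤ Nat.card X * Nat.card B := by
  have k : X.relIndex A ≤ R.relIndex B := by
    refine Nat.card_le_card_of_injective (fun q : A ⧸ X.subgroupOf A =>
      ((⟨φ (q.out : A), hφ _ q.out.2⟩ : B) : B ⧸ R.subgroupOf B)) fun q q' e => ?_
    rw [← q.out_eq', ← q'.out_eq']
    have e' : ((⟨φ (q.out : A), hφ _ q.out.2⟩ : B) : B ⧸ R.subgroupOf B) =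
      ((⟨φ (q'.out : A), hφ _ q'.out.2⟩ : B) : B ⧸ R.subgroupOf B) := e
    have e'' := QuotientGroup.eq.1 e'
    exact QuotientGroup.eq.2 (h _ q.out.2 _ q'.out.2 e'')
  have e1 : Nat.card X * X.relIndex A = Nat.card A := by
    rw [← Nat.card_congr (subgroupOfEquivOfLe hX).toEquiv]; exact card_mul_index _
  have e2 : Nat.card R * R.relIndex B = Nat.card B := by
    rw [← Nat.card_congr (subgroupOfEquivOfLe hR).toEquiv]; exact card_mul_index _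
  rw [← e1, ← e2]
  calc _ = Nat.card X * Nat.card R * X.relIndex A := by ring
    _ ≤ Nat.card X * Nat.card R * R.relIndex B := Nat.mul_le_mul_left _ k
    _ = _ := by ring

/-- the dihedral alternative -/
theorem dih {Q : Type*} [Group Q] [Finite Q] {a c : Q} (ha : a * a = 1) (hc : c * c = 1) :
    (∃ k, (a * c) ^ (2 * k + 1) = 1) ∨ ∃ v, v ≠ 1 ∧ v * a * v⁻¹ = a ∧ v * c * v⁻¹ = c ∧
      ∃ m, m * (v * a) * m⁻¹ = a ∨ m * (v * a) * m⁻¹ = c := by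
  rcases Nat.even_or_odd' (orderOf (a * c)) with ⟨k, hk | hk⟩
  · right
    have hpos := orderOf_pos (a * c)
    have h1 : (a * c) ^ k * (a * c) ^ k = 1 := by rw [← pow_add, ← two_mul, ← hk, pow_orderOf_eq_one]
    have h0 := LS.fp_dih0 ha hc k
    have hp : (a * c) ^ k * (a * c) = (a * c) * (a * c) ^ k := (Commute.pow_self _ k).eq
    have ia : a⁻¹ = a := inv_eq_of_mul_eq_one_right ha
    have hva : (a * c) ^ k * a * ((a * c) ^ k)⁻¹ = a := by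
      rw [← h0]
      simp only [← mul_assoc]
      rw [inv_eq_of_mul_eq_one_right h1] at h0
      generalize (a * c) ^ k = p at h0 h1
      calc p * a * a * p * a = p * (a * a) * p * a := by group
        _ = a := by rw [ha, mul_one, h1, one_mul]
    refine ⟨(a * c) ^ k, pow_ne_one_of_lt_orderOf (by omega) (by omega), hva, ?_, ?_⟩
    · generalize (a * c) ^ k = p at hva hp
      calc p * c * p⁻¹ = (p * a * p⁻¹)⁻¹ * (p * (a * c)) * p⁻¹ := by group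
        _ = c := by rw [hva, hp]; group
    · rcases Nat.even_or_odd' k with ⟨j, rfl | rfl⟩
      · exact ⟨_, Or.inl (LS.fp_dih1 ha hc j)⟩
      · exact ⟨_, Or.inr (LS.fp_dih2 ha hc j)⟩
  · exact Or.inl ⟨k, by rw [← hk, pow_orderOf_eq_one]⟩

/-- the elements of `Y` that commute with `a` modulo `Z` -/
def CM {G : Type*} [Group G] (Y Z : Subgroup G) (hZ : ∀ y ∈ Y, ∀ c ∈ Z, y * c * y⁻¹ = c) (a : G) : Subgroup G where
  carrier := {d | d ∈ Y ∧ d * a * d⁻¹ * a⁻¹ ∈ Z}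
  one_mem' := ⟨Y.one_mem, by simp⟩
  mul_mem' := by
    rintro d d' ⟨h1, h2⟩ ⟨h3, h4⟩
    refine ⟨Y.mul_mem h1 h3, ?_⟩
    have e : d * d' * a * (d * d')⁻¹ * a⁻¹ =
        (d * (d' * a * d'⁻¹ * a⁻¹) * d⁻¹) * (d * a * d⁻¹ * a⁻¹) := by group
    rw [e, hZ d h1 _ h4]
    exact Z.mul_mem h4 h2
  inv_mem' := by
    rintro d ⟨h1, h2⟩
    refine ⟨Y.inv_mem h1, ?_⟩
    have e : d⁻¹ * a * d⁻¹⁻¹ * a⁻¹ = d⁻¹ * (d * a * d⁻¹ * a⁻¹)⁻¹ * d⁻¹⁻¹ := by group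
    rw [e, hZ _ (Y.inv_mem h1) _ (Z.inv_mem h2)]
    exact Z.inv_mem h2

/-- a large subgroup centralised modulo `z` -/
theorem inv0 {G : Type*} [Group G] [Finite G] {Q : Subgroup G} {z : G} (h : H15.EX Q z)
    {x : G} (cz : Commute x z) {B : Subgroup G} (le : B ≤ Q) (c : 16 < Nat.card B)
    (n : ∀ b ∈ B, ⁅x, b⁆ ∈ zpowers z) : ∃ s ∈ Q, s * s = 1 ∧ s ≠ 1 ∧ s ≠ z ∧ Commute x s := by
  have c2 : Nat.card (zpowers z) = 2 := by rw [Nat.card_zpowers, H15.orderOf_two h.ne h.sq]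
  have k := idx (A := B) (B := zpowers z) (X := B ⊓ centralizer {x}) (R := ⊥) inf_le_left bot_le
    (fun b => ⁅x, b⁆) n (fun b hb b' hb' e => ⟨B.mul_mem (B.inv_mem hb) hb', mem_centralizer_singleton_iff.2 (by
      have e1 : b * (x * (b⁻¹ * b') * x⁻¹ * (b⁻¹ * b')⁻¹) * b⁻¹ = ⁅x, b⁆⁻¹ * ⁅x, b'⁆ := by
        simp only [commutatorElement_def]; group
      rw [mem_bot.1 e, conj_eq_one_iff, mul_inv_eq_one, mul_inv_eq_iff_eq_mul] at e1
      exact e1.symm)⟩)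
  rw [c2, card_bot] at k
  by_contra hn
  push Not at hn
  have := LS.exl_small h (X := B ⊓ centralizer {x}) (inf_le_left.trans le) fun s hs s2 => by
    by_contra hc
    push Not at hc
    exact hn s (le hs.1) s2 hc.1 hc.2 (mem_centralizer_singleton_iff.1 hs.2).symm
  omega

end FPX

open FPX

/-- the unique fixed point argument -/
theorem FP2 {G : Type*} [Group G] [Finite G] {Y H A Z : Subgroup G} (hZA : Z ≤ A) (hAH : A ≤ H)
    (hHY : H ≤ Y) (hZ : ∀ y ∈ Y, ∀ c ∈ Z, Commute y c) (el : ∀ c ∈ Z, c * c = 1)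
    (hn : ∀ n ∈ H, ∀ a ∈ A, n * a * n⁻¹ ∈ A) (hN : ∀ y ∈ Y, (∀ a ∈ A, y * a * y⁻¹ ∈ A) → y ∈ H)
    (hsq : ∀ a ∈ A, a * a ∈ Z) (S : Set G) (hS : ∀ s ∈ S, s ∈ H ∧ s * s ∈ Z)
    (fix : ∀ s ∈ S, ∀ y ∈ Y, y * s * y⁻¹ ∈ H → y ∈ H)
    (gd0 : ∀ a ∈ A, ∃ s ∈ S, ⁅s, a⁆ ∈ Z)
    (h1 : ∀ X : Subgroup G, X ≤ H → (∀ x ∈ X, x * x ∈ Z) → ∃ X₀ : Subgroup G, X₀ ≤ X ∧
      Nat.card X ≤ 8 * Nat.card X₀ ∧ ∀ x ∈ X₀, ∃ s ∈ S, ⁅s, x⁆ ∈ Z)
    (h2 : ∀ x ∈ H, x * x ∈ Z → (¬ ∃ s ∈ S, ⁅s, x⁆ ∈ Z) → ∀ B : Subgroup G, B ≤ A →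
      (∀ b ∈ B, ⁅x, b⁆ ∈ Z) → 16 * Nat.card B ≤ Nat.card A)
    (hne : ¬ Y ≤ H) :
    ∃ R : Subgroup G, Z ≤ R ∧ R ≤ A ∧ (∃ y ∈ Y, y ∉ H ∧ ∀ r ∈ R, y * r * y⁻¹ ∈ A) ∧
      (∀ a ∈ A, ∀ b ∈ A, a ∉ R → b ∉ R →
        ∃ n ∈ H, (∀ ρ ∈ R, n * ρ * n⁻¹ ∈ R) ∧ n * a * n⁻¹ * b⁻¹ ∈ R) ∧
      ∀ a ∈ A, ∀ b ∈ A, a ∉ R → b ∉ R → ∃ r ∈ R, ∀ ρ ∈ R, Commute (a * b * r) ρ := by
  have zc : ∀ y ∈ Y, ∀ c ∈ Z, y * c * y⁻¹ = c := fun y hy c hc => by
    rw [(hZ y hy c hc).eq, mul_inv_cancel_right]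
  have hAY : A ≤ Y := hAH.trans hHY
  -- `A / Z` is abelian
  have ab : ∀ a ∈ A, ∀ b ∈ A, a * b * a⁻¹ * b⁻¹ ∈ Z := fun a ha b hb => by
    have e : a * b * a⁻¹ * b⁻¹ = (a * b) * (a * b) * (b⁻¹ * (a * a)⁻¹ * b⁻¹⁻¹) * (b * b)⁻¹ := by group
    rw [e, zc _ (Y.inv_mem (hAY hb)) _ (Z.inv_mem (hsq a ha))]
    exact Z.mul_mem (Z.mul_mem (hsq _ (A.mul_mem ha hb)) (Z.inv_mem (hsq a ha))) (Z.inv_mem (hsq b hb))
  have ab' : ∀ y ∈ Y, ∀ a b, y * a * y⁻¹ ∈ A → y * b * y⁻¹ ∈ A → a * b * a⁻¹ * b⁻¹ ∈ Z := fun y hy a b ha hb => by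
    have k1 := ab _ ha _ hb
    have k2 := zc _ (Y.inv_mem hy) _ k1
    convert k1 using 1
    rw [← k2]; group
  have sq' : ∀ y ∈ Y, ∀ a, y * a * y⁻¹ ∈ A → a * a ∈ Z := fun y hy a ha => by
    have k1 := hsq _ ha
    have k2 := zc _ (Y.inv_mem hy) _ k1
    convert k1 using 1
    rw [← k2]; group
  -- (1)
  have one : ∀ a ∈ A, ∀ y ∈ Y, (∃ s ∈ S, ⁅s, y * a * y⁻¹⁆ ∈ Z) → y * a * y⁻¹ ∈ A := by
    rintro a ha y hy ⟨s, hs, hc⟩
    obtain ⟨s0, hs0, hc0⟩ := gd0 a ha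
    let D : Subgroup G := CM Y Z zc a
    have sD : s0 ∈ D := ⟨hHY (hS s0 hs0).1, hc0⟩
    have sD' : y⁻¹ * s * y ∈ D := by
      refine ⟨Y.mul_mem (Y.mul_mem (Y.inv_mem hy) (hHY (hS s hs).1)) hy, ?_⟩
      have e : y⁻¹ * s * y * a * (y⁻¹ * s * y)⁻¹ * a⁻¹ = y⁻¹ * ⁅s, y * a * y⁻¹⁆ * y⁻¹⁻¹ := by
        rw [commutatorElement_def]; group
      rw [e, zc _ (Y.inv_mem hy) _ hc]
      exact hc
    obtain ⟨d, hd⟩ := LS.fp_par (H.subgroupOf D) (s := ⟨s0, sD⟩) (s' := ⟨_, sD'⟩) (hS s0 hs0).1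
      (fun d => by
        change (d : G) * (s0 * s0) * (d : G)⁻¹ ∈ H
        rw [zc _ d.2.1 _ (hS s0 hs0).2]
        exact hAH (hZA (hS s0 hs0).2))
      (fun d => by
        change (d : G) * (y⁻¹ * s * y * (y⁻¹ * s * y)) * (d : G)⁻¹ ∈ H
        have e : y⁻¹ * s * y * (y⁻¹ * s * y) = y⁻¹ * (s * s) * y⁻¹⁻¹ := by group
        rw [e, zc _ (Y.inv_mem hy) _ (hS s hs).2, zc _ d.2.1 _ (hS s hs).2]
        exact hAH (hZA (hS s hs).2))
      (fun d hd => fix s0 hs0 d d.2.1 hd)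
    have hd' : (d : G) * (y⁻¹ * s * y) * (d : G)⁻¹ ∈ H := hd
    have h3 : (d : G) * y⁻¹ ∈ H := fix s hs _ (Y.mul_mem d.2.1 (Y.inv_mem hy)) (by
      convert hd' using 1; group)
    have := hn _ (H.inv_mem h3) _ (A.mul_mem (hZA d.2.2) ha)
    convert this using 1; group
  let I : G → Subgroup G → Subgroup G := fun y W => A ⊓ W.comap (MulAut.conj y).toMonoidHom
  have mI : ∀ y W x, x ∈ I y W ↔ x ∈ A ∧ y * x * y⁻¹ ∈ W := fun y W x => Iff.rfl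
  have eight : ∀ y ∈ Y, Nat.card (I y H) ≤ 8 * Nat.card (I y A) := fun y hy => by
    have inj : Function.Injective (MulAut.conj y).toMonoidHom := (MulAut.conj y).injective
    obtain ⟨X₀, l0, c0, g0⟩ := h1 ((I y H).map (MulAut.conj y).toMonoidHom)
      (by rintro _ ⟨x, hx, rfl⟩; exact hx.2) (by
        rintro _ ⟨x, hx, rfl⟩
        rw [← map_mul]
        change y * (x * x) * y⁻¹ ∈ Z
        rw [zc y hy _ (hsq x hx.1)]
        exact hsq x hx.1)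
    rw [card_map_of_injective inj] at c0
    refine c0.trans (Nat.mul_le_mul_left 8 ?_)
    rw [← card_map_of_injective (K := I y A) inj]
    refine card_le_of_le fun x hx => ?_
    obtain ⟨a, ha, rfl⟩ := l0 hx
    exact ⟨a, ⟨ha.1, one a ha.1 y hy (g0 _ hx)⟩, rfl⟩
  -- (2)
  obtain ⟨y0, ⟨hy0, hy0H⟩, hmax⟩ := Set.exists_max_image {y | y ∈ Y ∧ y ∉ H}
    (fun y => Nat.card (I y A)) (Set.toFinite _) (SetLike.not_le_iff_exists.1 hne)
  set R := I y0 A with hRd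
  have hRA : R ≤ A := inf_le_left
  have hg0 : ∀ ρ ∈ R, y0 * ρ * y0⁻¹ ∈ A := fun ρ hρ => hρ.2
  have hZR : Z ≤ R := fun c hc => (mI _ _ _).2 ⟨hZA hc, by rw [zc y0 hy0 c hc]; exact hZA hc⟩
  have mx : ∀ y ∈ Y, ∀ y' ∈ Y, (∀ ρ ∈ R, y * ρ * y⁻¹ ∈ A) → (∀ ρ ∈ R, y' * ρ * y'⁻¹ ∈ A) →
      ∀ x, y * x * y⁻¹ ∈ A → x ∉ R → y' * x * y'⁻¹ ∈ A → y' * y⁻¹ ∈ H := by
    intro y hy y' hy' g g' x hx hxR hx'
    by_contra hc
    have inj : Function.Injective (MulAut.conj y).toMonoidHom := (MulAut.conj y).injective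
    have k1 := hmax (y' * y⁻¹) ⟨Y.mul_mem hy' (Y.inv_mem hy), hc⟩
    have l1 : R.map (MulAut.conj y).toMonoidHom ≤ I (y' * y⁻¹) A := by
      rintro _ ⟨ρ, hρ, rfl⟩
      refine (mI _ _ _).2 ⟨g ρ hρ, ?_⟩
      convert g' ρ hρ using 1
      change y' * y⁻¹ * (y * ρ * y⁻¹) * (y' * y⁻¹)⁻¹ = _
      group
    have k2 := eq_of_le_of_card_ge l1 (by rw [card_map_of_injective inj]; exact k1)
    have k3 : y * x * y⁻¹ ∈ I (y' * y⁻¹) A := (mI _ _ _).2 ⟨hx, by convert hx' using 1; group⟩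
    rw [← k2] at k3
    exact hxR ((mem_map_iff_mem inj).1 k3)
  have uq : ∀ y ∈ Y, ∀ y' ∈ Y, (∀ ρ ∈ R, y * ρ * y⁻¹ ∈ A) → (∀ ρ ∈ R, y' * ρ * y'⁻¹ ∈ A) →
      ∀ x, y * x * y⁻¹ ∈ A → x ∉ R → y' * x * y'⁻¹ ∈ H → y' * y⁻¹ ∈ H := by
    intro y hy y' hy' g g' x hx hxR hx'
    by_contra hc
    set a := y' * x * y'⁻¹ with had
    set u := y * y'⁻¹ with hud
    have hu : u ∈ Y := Y.mul_mem hy (Y.inv_mem hy')
    have ua : u * a * u⁻¹ ∈ A := by convert hx using 1; rw [hud, had]; group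
    have aA : a ∉ A := fun k => hc (mx y hy y' hy' g g' x hx hxR k)
    have a2 : a * a ∈ Z := sq' u hu a ua
    have ng : ¬ ∃ s ∈ S, ⁅s, a⁆ ∈ Z := fun k => aA (by
      have e : u⁻¹ * (u * a * u⁻¹) * u⁻¹⁻¹ = a := by group
      have := one _ ua u⁻¹ (Y.inv_mem hu) (by rwa [e])
      rwa [e] at this)
    let B : Subgroup G := A ⊓ CM Y Z zc a
    have mB : ∀ b ∈ A, a * b * a⁻¹ * b⁻¹ ∈ Z → b ∈ B := fun b hb k => ⟨hb, hAY hb, by
      convert Z.inv_mem k using 1; group⟩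
    have c16 := h2 a hx' a2 ng B inf_le_left fun b hb => by
      convert Z.inv_mem hb.2.2 using 1
      rw [commutatorElement_def]; group
    have RB : I u A ≤ B := fun b hb => mB b hb.1 (ab' u hu a b ua hb.2)
    have k := idx (A := A) (B := B) (X := I u H) (R := I u A) inf_le_left RB (fun b => a * b * a⁻¹ * b⁻¹)
      (fun b hb => by
        have m1 : a * b * a⁻¹ * b⁻¹ ∈ A := A.mul_mem (hn a hx' b hb) (A.inv_mem hb)
        refine mB _ m1 ?_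
        have e : a * (a * b * a⁻¹ * b⁻¹) * a⁻¹ * (a * b * a⁻¹ * b⁻¹)⁻¹ =
            (a * a) * (b * (a * a)⁻¹ * b⁻¹) * ((a * b * a⁻¹ * b⁻¹) * (a * b * a⁻¹ * b⁻¹))⁻¹ := by group
        rw [e, zc b (hAY hb) _ (Z.inv_mem a2)]
        exact Z.mul_mem (Z.mul_mem a2 (Z.inv_mem a2)) (Z.inv_mem (hsq _ m1)))
      (fun b hb b' hb' e => by
        have hβ : b⁻¹ * b' ∈ A := A.mul_mem (A.inv_mem hb) hb'
        refine (mI _ _ _).2 ⟨hβ, ?_⟩
        set β := b⁻¹ * b' with hβd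
        -- the commutator of `a` and `β` lies in `A_u`
        have k1 : u * (a * β * a⁻¹ * β⁻¹) * u⁻¹ ∈ A := by
          have z1 := ab _ (A.inv_mem hb) _ e.1
          have := A.mul_mem (hZA z1) e.2
          rw [← zc u hu _ z1] at this
          convert this using 1
          change _ = _ * (u * _ * u⁻¹)
          rw [hβd]; group
        have k2 : y * (y'⁻¹ * β * y') * x * (y * (y'⁻¹ * β * y'))⁻¹ ∈ A := by
          convert A.mul_mem (A.inv_mem k1) ua using 1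
          rw [hud, had]; group
        have k3 := mx y hy (y * (y'⁻¹ * β * y')) (Y.mul_mem hy (Y.mul_mem (Y.mul_mem (Y.inv_mem hy') (hAY hβ)) hy'))
          g (fun ρ hρ => by
            have z1 := ab _ hβ _ (g' ρ hρ)
            have := A.mul_mem (hZA z1) (g ρ hρ)
            rw [← zc u hu _ z1] at this
            convert this using 1
            rw [hud]; group) x hx hxR k2
        convert k3 using 1
        rw [hud]; group)
    have k8 := eight u hu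
    have p1 : 0 < Nat.card (I u A) := Nat.card_pos
    have p2 : 0 < Nat.card B := Nat.card_pos
    have k9 : 16 * Nat.card B * Nat.card (I u A) ≤ 8 * Nat.card (I u A) * Nat.card B :=
      (Nat.mul_le_mul_right _ c16).trans (k.trans (Nat.mul_le_mul_right _ k8))
    nlinarith [Nat.mul_pos p1 p2]
  obtain ⟨s, hs, cR⟩ : ∃ s ∈ A, y0⁻¹ * s * y0 ∉ R := by
    by_contra hc
    push Not at hc
    exact hy0H (H.inv_mem_iff.1 (hN _ (Y.inv_mem hy0) fun a ha => by rw [inv_inv]; exact hRA (hc a ha)))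
  -- (3)
  set N : Subgroup G := normalizer (R : Set G) ⊓ Y with hNd
  have : (R.subgroupOf N).Normal := normal_subgroupOf_of_le_normalizer inf_le_left
  have nR : ∀ n ∈ N, ∀ ρ ∈ R, n * ρ * n⁻¹ ∈ R := fun n h ρ hρ => (mem_normalizer_iff.1 h.1 ρ).1 hρ
  have g1 : ∀ ρ ∈ R, (1 : G) * ρ * 1⁻¹ ∈ A := fun ρ hρ => by simpa using hRA hρ
  have gN : ∀ y, (∀ ρ ∈ R, y * ρ * y⁻¹ ∈ A) → ∀ n ∈ N, ∀ ρ ∈ R, y * n * ρ * (y * n)⁻¹ ∈ A :=
    fun y g n h ρ hρ => by convert g _ (nR n h ρ hρ) using 1; group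
  have mN : ∀ y ∈ Y, (∀ ρ ∈ R, y * ρ * y⁻¹ ∈ A) → ∀ x, y * x * y⁻¹ ∈ A → x ∈ N := by
    intro y hy g x hx
    refine ⟨mem_normalizer_fintype fun ρ hρ => ?_, ?_⟩
    · have := R.mul_mem (hZR (ab' y hy x ρ hx (g ρ hρ))) hρ
      change x * ρ * x⁻¹ ∈ R
      convert this using 1; group
    · have := Y.mul_mem (Y.mul_mem (Y.inv_mem hy) (hAY hx)) hy
      change x ∈ Y
      convert this using 1; group
  set c := y0⁻¹ * s * y0 with hcd
  have cA : y0 * c * y0⁻¹ ∈ A := by convert hs using 1; rw [hcd]; group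
  have cN : c ∈ N := mN y0 hy0 hg0 c cA
  have aN : ∀ a ∈ A, a ∈ N := fun a ha => mN 1 Y.one_mem g1 a (by simpa using ha)
  let π := QuotientGroup.mk' (R.subgroupOf N)
  have p0 : ∀ x : N, π x = 1 → (x : G) ∈ R := fun x h =>
    (QuotientGroup.eq_one_iff (N := R.subgroupOf N) x).1 h
  have pe : ∀ x x' : N, π x = π x' → (x : G) * (x' : G)⁻¹ ∈ R := fun x x' h =>
    p0 (x * x'⁻¹) (by rw [map_mul, map_inv, h, mul_inv_cancel])
  have p1 : ∀ x : N, (x : G) ∈ R → π x = 1 := fun x h => (QuotientGroup.eq_one_iff _).2 h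
  have c2 : π ⟨c, cN⟩ * π ⟨c, cN⟩ = 1 := by
    rw [← map_mul]
    exact p1 _ (hZR (sq' y0 hy0 c cA))
  have a2 : ∀ a (ha : a ∈ A), π ⟨a, aN a ha⟩ * π ⟨a, aN a ha⟩ = 1 := fun a ha => by
    rw [← map_mul]
    exact p1 _ (hZR (hsq a ha))
  have main0 : ∀ a (ha : a ∈ A), a ∉ R → ∃ k, (π ⟨a, aN a ha⟩ * π ⟨c, cN⟩) ^ (2 * k + 1) = 1 := by
    intro a ha haR
    refine (dih (a2 a ha) c2).resolve_right ?_
    rintro ⟨v, v1, va, vc, m, hm⟩
    obtain ⟨v, rfl⟩ := QuotientGroup.mk'_surjective (R.subgroupOf N) v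
    obtain ⟨m, rfl⟩ := QuotientGroup.mk'_surjective (R.subgroupOf N) m
    have vR : (v : G) ∉ R := fun h => v1 (p1 v h)
    have e1 : (v : G) * a * (v : G)⁻¹ * a⁻¹ ∈ R :=
      pe (v * ⟨a, aN a ha⟩ * v⁻¹) ⟨a, aN a ha⟩ (by rw [map_mul, map_mul, map_inv]; exact va)
    have e2 : (v : G) * c * (v : G)⁻¹ * c⁻¹ ∈ R :=
      pe (v * ⟨c, cN⟩ * v⁻¹) ⟨c, cN⟩ (by rw [map_mul, map_mul, map_inv]; exact vc)
    have vH : (v : G) ∈ H := by
      have := uq 1 Y.one_mem v v.2.2 g1 (by simpa using gN 1 g1 v v.2) a (by simpa using ha) haR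
        (by simpa using H.mul_mem (hAH (hRA e1)) (hAH ha))
      simpa using this
    have vH' : y0 * v * y0⁻¹ ∈ H :=
      uq y0 hy0 (y0 * v) (Y.mul_mem hy0 v.2.2) hg0 (gN y0 hg0 v v.2) c cA cR
        (by convert hAH (A.mul_mem (hg0 _ e2) cA) using 1; group)
    have vaR : (v : G) * a ∉ R := fun h => by
      have h1 : π v * π ⟨a, aN a ha⟩ = 1 := by rw [← map_mul]; exact p1 _ h
      change π m * (π v * π ⟨a, aN a ha⟩) * (π m)⁻¹ = _ ∨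
        π m * (π v * π ⟨a, aN a ha⟩) * (π m)⁻¹ = _ at hm
      rw [h1, mul_one, mul_inv_cancel] at hm
      rcases hm with hm | hm
      · exact haR (p0 _ hm.symm)
      · exact cR (p0 _ hm.symm)
    have fin : ∀ y ∈ Y, (∀ ρ ∈ R, y * ρ * y⁻¹ ∈ A) → y * (v * a) * y⁻¹ ∈ A → False := by
      intro y hy g h
      have h1 := uq y hy 1 Y.one_mem g g1 _ h vaR (by simpa using H.mul_mem vH (hAH ha))
      have h2 : (v : G) ∈ A := by
        convert A.mul_mem (hn _ h1 _ h) (A.inv_mem ha) using 1; group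
      have h3 := uq 1 Y.one_mem y0 hy0 g1 hg0 v (by simpa using h2) vR vH'
      exact hy0H (by simpa using h3)
    rcases hm with hm | hm
    · have e3 : (m : G) * (v * a) * (m : G)⁻¹ * a⁻¹ ∈ R :=
        pe (m * (v * ⟨a, aN a ha⟩) * m⁻¹) ⟨a, aN a ha⟩
          (by rw [map_mul, map_mul, map_mul, map_inv]; exact hm)
      exact fin m m.2.2 (by simpa using gN 1 g1 m m.2) (by simpa using A.mul_mem (hRA e3) ha)
    · have e3 : (m : G) * (v * a) * (m : G)⁻¹ * c⁻¹ ∈ R :=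
        pe (m * (v * ⟨a, aN a ha⟩) * m⁻¹) ⟨c, cN⟩
          (by rw [map_mul, map_mul, map_mul, map_inv]; exact hm)
      refine fin (y0 * m) (Y.mul_mem hy0 m.2.2) (gN y0 hg0 m m.2) ?_
      convert A.mul_mem (hg0 _ e3) cA using 1; group
  have main : ∀ a (ha : a ∈ A), a ∉ R → ∃ m, m * π ⟨a, aN a ha⟩ * m⁻¹ = π ⟨c, cN⟩ := by
    intro a ha haR
    obtain ⟨k, hk⟩ := main0 a ha haR
    have := LS.fp_dih2 (a2 a ha) c2 k
    rw [hk, one_mul] at this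
    exact ⟨_, this⟩
  have main2 : ∀ a ∈ A, a ∉ R → ∃ r ∈ R, a * c * r ∈ centralizer (R : Set G) := by
    intro a ha haR
    obtain ⟨k, hk⟩ := main0 a ha haR
    rw [← map_mul, ← map_pow] at hk
    have k1 : (a * c) ^ (2 * k + 1) ∈ R := p0 _ hk
    refine ⟨_, R.inv_mem k1, ?_⟩
    have k2 : (a * c) ^ 2 ∈ centralizer (R : Set G) := fun ρ hρ => by
      have z1 := ab' y0 hy0 c ρ cA (hg0 ρ hρ)
      have z2 := ab a ha ρ (hRA hρ)
      have acY : a * c ∈ Y := Y.mul_mem (hAY ha) cN.2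
      have z3 : a * c * ρ * (a * c)⁻¹ * ρ⁻¹ ∈ Z := by
        have := Z.mul_mem z1 z2
        rw [← zc a (hAY ha) _ z1] at this
        convert this using 1; group
      generalize a * c = p at acY z3
      have e1 := el _ z3
      nth_rewrite 1 [← zc p acY _ z3] at e1
      rw [pow_two]
      calc ρ * (p * p) = (p * (p * ρ * p⁻¹ * ρ⁻¹) * p⁻¹ * (p * ρ * p⁻¹ * ρ⁻¹)) * ρ * (p * p) := by
            rw [e1, one_mul]
        _ = _ := by group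
    convert (centralizer (R : Set G)).inv_mem (pow_mem k2 k) using 1
    rw [pow_succ', pow_mul]; group
  refine ⟨R, hZR, hRA, ⟨y0, hy0, hy0H, hg0⟩, fun a ha b hb haR hbR => ?_, fun a ha b hb haR hbR => ?_⟩
  · obtain ⟨m, hm⟩ := main a ha haR
    obtain ⟨m', hm'⟩ := main b hb hbR
    obtain ⟨n, hn'⟩ := QuotientGroup.mk'_surjective (R.subgroupOf N) (m'⁻¹ * m)
    have e : (n : G) * a * (n : G)⁻¹ * b⁻¹ ∈ R :=
      pe (n * ⟨a, aN a ha⟩ * n⁻¹) ⟨b, aN b hb⟩ (by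
        rw [map_mul, map_mul, map_inv, show π n = m'⁻¹ * m from hn']
        calc _ = m'⁻¹ * (m * π ⟨a, aN a ha⟩ * m⁻¹) * m' := by group
          _ = _ := by rw [hm, ← hm']; group)
    refine ⟨n, ?_, nR n n.2, e⟩
    have := uq 1 Y.one_mem n n.2.2 g1 (by simpa using gN 1 g1 n n.2) a (by simpa using ha) haR
      (by simpa using H.mul_mem (hAH (hRA e)) (hAH hb))
    simpa using this
  · obtain ⟨r, hr, e⟩ := main2 a ha haR
    obtain ⟨r', hr', e'⟩ := main2 b hb hbR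
    have m1 := R.mul_mem (R.inv_mem hr') hr
    refine ⟨(b * b)⁻¹ * (r'⁻¹ * r), R.mul_mem (R.inv_mem (hZR (hsq b hb))) m1, fun ρ hρ => ?_⟩
    have k := mul_mem e (inv_mem e')
    have k1 := (centralizer (R : Set G)).inv_mem e' _ (R.inv_mem m1)
    have e2 : a * b * ((b * b)⁻¹ * (r'⁻¹ * r)) = a * c * r * (b * c * r')⁻¹ := by
      calc _ = a * c * r * ((r'⁻¹ * r)⁻¹ * (b * c * r')⁻¹) * (r'⁻¹ * r) := by group
        _ = _ := by rw [k1]; group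
    rw [e2]
    exact (k ρ hρ).symm

theorem EX_fp {G : Type*} [Group G] [Finite G] {Q : Subgroup G} {z : G} (h : H15.EX Q z)
    (c : Nat.card Q = 512) {R : Subgroup G} (hz : z ∈ R) (le : R ≤ Q)
    (an : ∀ s ∈ R, s * s = 1 → s = 1 ∨ s = z)
    (tr : ∀ a ∈ Q, ∀ b ∈ Q, a ∉ R → b ∉ R → ∃ n, Commute n z ∧ (∀ q ∈ Q, n * q * n⁻¹ ∈ Q) ∧
      (∀ ρ ∈ R, n * ρ * n⁻¹ ∈ R) ∧ n * a * n⁻¹ * b⁻¹ ∈ R) : False := by
  have r8 := LS.exl_small h le an
  have cc := h.card_cent le hz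
  set C : Subgroup G := Q ⊓ centralizer (R : Set G) with hC
  have mC : ∀ a, a ∈ C ↔ a ∈ Q ∧ ∀ ρ ∈ R, ρ * a = a * ρ := fun a => by
    rw [hC, mem_inf, mem_centralizer_iff]; rfl
  have c32 : 32 ≤ Nat.card C := by
    rw [c] at cc
    by_contra hlt
    have : Nat.card C * Nat.card R ≤ 31 * 8 := Nat.mul_le_mul (by omega) r8
    omega
  have cjC : ∀ n, (∀ q ∈ Q, n * q * n⁻¹ ∈ Q) → (∀ ρ ∈ R, n * ρ * n⁻¹ ∈ R) →
      ∀ a ∈ C, n * a * n⁻¹ ∈ C := by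
    intro n nQ nR a ha
    obtain ⟨aQ, aR⟩ := (mC a).1 ha
    refine (mC _).2 ⟨nQ a aQ, fun ρ hρ => ?_⟩
    have nN : n ∈ normalizer (R : Set G) := mem_normalizer_fintype (fun x hx => nR x hx)
    have : n⁻¹ * ρ * n⁻¹⁻¹ ∈ R := (mem_normalizer_iff.1 (inv_mem nN) ρ).1 hρ
    have e := aR _ this
    calc ρ * (n * a * n⁻¹) = n * (n⁻¹ * ρ * n⁻¹⁻¹ * a) * n⁻¹ := by group
      _ = n * a * n⁻¹ * ρ := by rw [e]; group
  obtain ⟨a0, ha0, na0⟩ : ∃ a ∈ C, a ∉ R := by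
    by_contra hc
    push Not at hc
    have := Subgroup.card_le_of_le (show C ≤ R from hc)
    omega
  have dec : ∀ q ∈ Q, ∃ ρ ∈ R, ∃ a ∈ C, q = ρ * a := by
    intro q hq
    by_cases qR : q ∈ R
    · exact ⟨q, qR, 1, C.one_mem, by simp⟩
    obtain ⟨n, -, nQ, nR, e⟩ := tr a0 ((mC a0).1 ha0).1 q hq na0 qR
    exact ⟨_, R.inv_mem e, _, cjC n nQ nR a0 ha0, by group⟩
  have cen : ∀ s ∈ C, (∀ a ∈ C, s * a = a * s) → s = 1 ∨ s = z := by
    intro s hs hc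
    refine h.center s ((mC s).1 hs).1 fun q hq => ?_
    obtain ⟨ρ, hρ, a, ha, rfl⟩ := dec q hq
    rw [← mul_assoc, ← ((mC s).1 hs).2 ρ hρ, mul_assoc, hc a ha, mul_assoc]
  have RC : ∀ s ∈ R, s ∈ C → s = 1 ∨ s = z := fun s hs hc =>
    cen s hc fun a ha => ((mC a).1 ha).2 s hs
  by_cases an' : ∀ s ∈ C, s * s = 1 → s = 1 ∨ s = z
  · have := LS.exl_small h (show C ≤ Q from inf_le_left) an'
    omega
  push Not at an'
  obtain ⟨a, ha, a2, a1, az⟩ := an'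
  have aR : a ∉ R := fun e => (RC a e ha).elim a1 az
  have sq : ∀ b ∈ C, b * b = 1 := by
    intro b hb
    by_cases bR : b ∈ R
    · rcases RC b bR hb with e | e <;> rw [e]
      · simp
      · exact h.sq
    obtain ⟨n, -, nQ, nR, e⟩ := tr a ((mC a).1 ha).1 b ((mC b).1 hb).1 aR bR
    have m := cjC n nQ nR a ha
    have s2 : (n * a * n⁻¹) * (n * a * n⁻¹) = 1 := by
      rw [show (n * a * n⁻¹) * (n * a * n⁻¹) = n * (a * a) * n⁻¹ by group, a2]; group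
    rcases RC _ e (C.mul_mem m (C.inv_mem hb)) with e' | e'
    · rw [mul_inv_eq_one.1 e'] at s2; exact s2
    · rw [mul_inv_eq_iff_eq_mul.1 e', LS.exl_sq' (h.cen b ((mC b).1 hb).1).symm, h.sq, one_mul] at s2
      exact s2
  refine (cen a ha fun b hb => ?_).elim a1 az
  have e1 := sq _ (C.mul_mem ha hb)
  have ia : a⁻¹ = a := inv_eq_of_mul_eq_one_right a2
  have ib : b⁻¹ = b := inv_eq_of_mul_eq_one_right (sq b hb)
  rw [eq_inv_of_mul_eq_one_left e1, mul_inv_rev, ia, ib]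

/-- a subgroup with squares in `⟨z⟩` that normalises `Q` fixes a noncentral involution modulo `z` -/
theorem EX_fix {G : Type*} [Group G] [Finite G] {Q : Subgroup G} {z : G} (h : H15.EX Q z)
    (c : {s | s ∈ Q ∧ s * s = 1 ∧ s ≠ 1 ∧ s ≠ z}.ncard = 270) {X : Subgroup G} (hX : IsPGroup 2 X)
    (cz : ∀ x ∈ X, Commute x z) (n : ∀ x ∈ X, ∀ q ∈ Q, x * q * x⁻¹ ∈ Q) :
    ∃ s ∈ Q, s * s = 1 ∧ s ≠ 1 ∧ s ≠ z ∧ ∀ x ∈ X, x * s * x⁻¹ = s ∨ x * s * x⁻¹ = s * z := by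
  have : Fact (Nat.Prime 2) := ⟨Nat.prime_two⟩
  set Ω : Set G := {s | s ∈ Q ∧ s * s = 1 ∧ s ≠ 1 ∧ s ≠ z} with hΩ
  have c2 : Nat.card (zpowers z) = 2 := by rw [Nat.card_zpowers, H15.orderOf_two h.ne h.sq]
  have mz : ∀ g, g ∈ zpowers z ↔ g = 1 ∨ g = z := fun g => by
    refine ⟨fun hg => ?_, by rintro (rfl | rfl); exacts [one_mem _, mem_zpowers _]⟩
    obtain ⟨k, rfl⟩ := mem_powers_iff_mem_zpowers.2 hg
    change z ^ k = 1 ∨ z ^ k = z
    rcases Nat.even_or_odd' k with ⟨j, rfl | rfl⟩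
    · left; rw [pow_mul, pow_two, h.sq, one_pow]
    · right; rw [pow_succ, pow_mul, pow_two, h.sq, one_pow, one_mul]
  have zi : z⁻¹ = z := inv_eq_of_mul_eq_one_right h.sq
  let X' : Subgroup (MulAut G) := X.map (MulAut.conj : G →* MulAut G)
  have sm : ∀ x : X', ∃ y ∈ X, ∀ g : G, x • g = y * g * y⁻¹ := by
    rintro ⟨_, y, hy, rfl⟩
    exact ⟨y, hy, fun _ => rfl⟩
  have : MulAction.QuotientAction X' (zpowers z) := ⟨fun x a a' k => by
    obtain ⟨y, hy, sm⟩ := sm x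
    rw [sm, sm, show (y * a * y⁻¹)⁻¹ * (y * a' * y⁻¹) = y * (a⁻¹ * a') * y⁻¹ by group]
    rcases (mz _).1 k with e | e <;> rw [e]
    · simp
    · rw [(cz y hy).eq, mul_inv_cancel_right]; exact mem_zpowers z⟩
  let T : SubMulAction X' (G ⧸ zpowers z) :=
    { carrier := QuotientGroup.mk '' Ω
      smul_mem' := by
        rintro x _ ⟨s, ⟨h1, h2, h3, h4⟩, rfl⟩
        obtain ⟨y, hy, sm⟩ := sm x
        refine ⟨x • s, ⟨sm s ▸ n y hy s h1, by rw [sm, conj_mul, h2]; simp, by simpa [sm] using h3,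
          fun e => h4 ?_⟩, rfl⟩
        rw [sm, mul_inv_eq_iff_eq_mul, ← (cz y hy).eq] at e
        exact mul_left_cancel e }
  have pre : QuotientGroup.mk ⁻¹' (T : Set (G ⧸ zpowers z)) = Ω := by
    ext g
    refine ⟨?_, fun k => ⟨g, k, rfl⟩⟩
    rintro ⟨s, ⟨h1, h2, h3, h4⟩, e⟩
    rcases (mz _).1 (QuotientGroup.eq.1 e) with k | k
    · rw [inv_mul_eq_one] at k
      exact k ▸ ⟨h1, h2, h3, h4⟩
    · rw [inv_mul_eq_iff_eq_mul] at k
      subst k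
      refine ⟨Q.mul_mem h1 h.mem, ?_, fun e => h4 ?_, fun e => h3 (by simpa using e)⟩
      · rw [LS.exl_sq' (h.cen s h1), h2, h.sq, one_mul]
      · rw [← zi]; exact eq_inv_of_mul_eq_one_left e
  have cT := QuotientGroup.card_preimage_mk (zpowers z) (T : Set (G ⧸ zpowers z))
  rw [pre, c2, Nat.card_coe_set_eq, c] at cT
  obtain ⟨⟨_, s, ⟨h1, h2, h3, h4⟩, rfl⟩, hf⟩ := (hX.map (MulAut.conj : G →* MulAut G)).nonempty_fixed_point_of_prime_not_dvd_card T (by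
    change ¬ 2 ∣ Nat.card (T : Set (G ⧸ zpowers z))
    omega)
  refine ⟨s, h1, h2, h3, h4, fun x hx => ?_⟩
  have e : (QuotientGroup.mk (x * s * x⁻¹) : G ⧸ zpowers z) = QuotientGroup.mk s :=
    congrArg Subtype.val (hf ⟨MulAut.conj x, x, hx, rfl⟩)
  rcases (mz _).1 (QuotientGroup.eq.1 e.symm) with k | k
  · exact Or.inl (inv_mul_eq_one.1 k).symm
  · exact Or.inr (inv_mul_eq_iff_eq_mul.1 k)

/-- an element with square in `⟨z⟩` centralises a noncentral involution -/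
theorem EX_inv {G : Type*} [Group G] [Finite G] {Q : Subgroup G} {z : G} (h : H15.EX Q z)
    (c : Nat.card Q = 512) {x : G} (sq : x * x ∈ zpowers z) (cz : Commute x z)
    (n : ∀ q ∈ Q, x * q * x⁻¹ ∈ Q) : ∃ s ∈ Q, s * s = 1 ∧ s ≠ 1 ∧ s ≠ z ∧ Commute x s := by
  have c2 : Nat.card (zpowers z) = 2 := by rw [Nat.card_zpowers, H15.orderOf_two h.ne h.sq]
  have zc : ∀ y ∈ centralizer ({z} : Set G), ∀ c ∈ zpowers z, y * c * y⁻¹ = c := fun y hy c hc => by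
    obtain ⟨k, rfl⟩ := mem_zpowers_iff.1 hc
    rw [((show Commute y z from mem_centralizer_singleton_iff.1 hy).zpow_right k).eq, mul_inv_cancel_right]
  have Qc : Q ≤ centralizer ({z} : Set G) := fun q hq => mem_centralizer_singleton_iff.2 (h.cen q hq)
  have sQ : ∀ q ∈ Q, q * q ∈ zpowers z := fun q hq => by
    rcases h.sqr q hq with e | e <;> rw [e]
    exacts [one_mem _, mem_zpowers _]
  let B : Subgroup G := Q ⊓ CM _ _ zc x
  have mB : ∀ b ∈ Q, x * b * x⁻¹ * b⁻¹ ∈ zpowers z → b ∈ B := fun b hb k => ⟨hb, Qc hb, by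
    convert (zpowers z).inv_mem k using 1; group⟩
  have k := idx (A := Q) (B := B) (X := B) (R := zpowers z) inf_le_left
    (zpowers_le.2 (mB z h.mem (by rw [cz.eq]; simp))) (fun b => x * b * x⁻¹ * b⁻¹)
    (fun b hb => by
      have m1 : x * b * x⁻¹ * b⁻¹ ∈ Q := Q.mul_mem (n b hb) (Q.inv_mem hb)
      refine mB _ m1 ?_
      have e : x * (x * b * x⁻¹ * b⁻¹) * x⁻¹ * (x * b * x⁻¹ * b⁻¹)⁻¹ =
          (x * x) * (b * (x * x)⁻¹ * b⁻¹) * ((x * b * x⁻¹ * b⁻¹) * (x * b * x⁻¹ * b⁻¹))⁻¹ := by group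
      rw [e, zc b (Qc hb) _ (inv_mem sq)]
      exact mul_mem (mul_mem sq (inv_mem sq)) (inv_mem (sQ _ m1)))
    (fun b hb b' hb' e => mB _ (Q.mul_mem (Q.inv_mem hb) hb') (by
      rw [← zc _ (inv_mem (Qc hb)) _ e] at e
      convert e using 1; group))
  rw [c, c2] at k
  refine inv0 h cz (B := B) inf_le_left ?_ fun b hb => ?_
  · by_contra hc
    have := Nat.mul_le_mul (not_lt.1 hc) (not_lt.1 hc)
    omega
  · convert (zpowers z).inv_mem hb.2.2 using 1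
    rw [commutatorElement_def]; group

/-- the same inside a large subgroup that `x` centralises modulo `z` -/
theorem EX_inv' {G : Type*} [Group G] [Finite G] {Q : Subgroup G} {z : G} (h : H15.EX Q z)
    {x : G} (cz : Commute x z) {B : Subgroup G} (le : B ≤ Q) (c : 32 < Nat.card B)
    (n : ∀ b ∈ B, ⁅x, b⁆ ∈ zpowers z) : ∃ s ∈ Q, s * s = 1 ∧ s ≠ 1 ∧ s ≠ z ∧ Commute x s :=
  inv0 h cz le (by omega) n

end Cfsg.Agent.LG
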