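import Cfsg.Agent.LG.Defs

set_option autoImplicit false
set_option maxRecDepth 100000
set_option synthInstance.maxSize 4096

namespace Cfsg.Agent.LG

open Subgroup H29
open scoped commutatorElement

theorem two (x : F) : x + x = 0 := by revert x; decide

theorem two4 (v : V4) : v + v = 0 := by ext <;> exact two _

theorem two6 (v : V6) : v + v = 0 := by ext <;> exact two _

namespace Mp

theorem t2 : (2 : F) = 0 := by decide

theorem sq_add : ∀ x y : F, (x + y) * (x + y) = x * x + y * y := by decide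

theorem cases4 (l : F) : l = 0 ∨ l = 1 ∨ l = ω ∨ l = ω * ω := by revert l; decide

end Mp

open Mp

theorem ra_add (t : F) (v w : V4) : ra t (v + w) = ra t v + ra t w := by
  ext <;> simp [ra] <;> ring

theorem ra_ra (s t : F) (v : V4) : ra s (ra t v) = ra (s + t) v := by
  revert s t v; decide +kernel

theorem q4_add (v w : V4) : q4 (v + w) = q4 v + q4 w + b4 v w := by
  simp only [q4, b4, Prod.fst_add, Prod.snd_add]; ring

theorem q6_add (v w : V6) : q6 (v + w) = q6 v + q6 w + b6 v w := by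
  simp only [q6, b6, q4, b4, Prod.fst_add, Prod.snd_add]; ring

theorem q6_smul (l : F) (v : V6) : q6 (l • v) = l * l * q6 v := by
  simp only [q6, q4, Prod.smul_fst, Prod.smul_snd, smul_eq_mul]; ring

theorem b6_add (u v w : V6) : b6 (u + v) w = b6 u w + b6 v w := by
  simp only [b6, b4, Prod.fst_add, Prod.snd_add]; ring

theorem b6_smul (l : F) (v w : V6) : b6 (l • v) w = l * b6 v w := by
  simp only [b6, b4, Prod.smul_fst, Prod.smul_snd, smul_eq_mul]; ring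

theorem b6_comm (v w : V6) : b6 v w = b6 w v := by
  simp only [b6, b4]; ring

theorem b6_nd {v : V6} (h : ∀ w, b6 v w = 0) : v = 0 := by
  have h1 := h ((1, 0, 0, 0), 0, 0)
  have h2 := h ((0, 1, 0, 0), 0, 0)
  have h3 := h ((0, 0, 1, 0), 0, 0)
  have h4 := h ((0, 0, 0, 1), 0, 0)
  have h5 := h ((0, 0, 0, 0), 1, 0)
  have h6 := h ((0, 0, 0, 0), 0, 1)
  simp [b6, b4] at h1 h2 h3 h4 h5 h6
  ext <;> assumption

/-- every linear form on `V4` is a value of `b4` -/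
theorem b4_rep (φ : V4 → F) (ha : ∀ v w, φ (v + w) = φ v + φ w) (hs : ∀ v, φ (ω • v) = ω * φ v) :
    ∃ u, ∀ v, φ v = b4 u v := by
  have h0 : φ 0 = 0 := by
    have := ha 0 0
    rw [add_zero, two] at this
    exact this
  have hl : ∀ (l : F) v, φ (l • v) = l * φ v := fun l v => by
    rcases cases4 l with rfl | rfl | rfl | rfl
    · rw [zero_smul, h0, zero_mul]
    · rw [one_smul, one_mul]
    · exact hs v
    · rw [mul_smul, hs, hs, mul_assoc]
  refine ⟨(φ (0, 0, 0, 1), φ (0, 0, 1, 0), φ (0, 1, 0, 0), φ (1, 0, 0, 0)), fun v => ?_⟩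
  have e : v = v.1 • ((1, 0, 0, 0) : V4) + v.2.1 • ((0, 1, 0, 0) : V4) +
      v.2.2.1 • ((0, 0, 1, 0) : V4) + v.2.2.2 • ((0, 0, 0, 1) : V4) := by ext <;> simp
  conv_lhs => rw [e]
  rw [ha, ha, ha, hl, hl, hl, hl]
  simp only [b4]; ring

namespace Mp

theorem phi_cases : ∀ x y : F, (∀ a : F, a + (![0, x, y, x + y] : Fin 4 → F)
      (match a with | .o => 0 | .i => 1 | .w => 2 | .v => 3) +
      (![0, x, y, x + y] : Fin 4 → F) (match (![0, x, y, x + y] : Fin 4 → F)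
        (match a with | .o => 0 | .i => 1 | .w => 2 | .v => 3) with
          | .o => 0 | .i => 1 | .w => 2 | .v => 3) = 0) →
    (x = ω ∧ y = ω * ω) ∨ (x = ω * ω ∧ y = 1) := by decide +kernel

theorem phi_main (φ : F → F) (ha : ∀ a b, φ (a + b) = φ a + φ b) (h3 : ∀ a, a + φ a + φ (φ a) = 0) :
    (∀ a, φ a = ω * a) ∨ ∀ a, φ a = ω * ω * a := by
  have h0 : φ 0 = 0 := by
    have := ha 0 0
    rw [add_zero, two] at this
    exact this
  have hv : φ F4.v = φ 1 + φ ω := by rw [← ha]; rfl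
  have e : ∀ a, φ a = (![0, φ 1, φ ω, φ 1 + φ ω] : Fin 4 → F)
      (match a with | .o => 0 | .i => 1 | .w => 2 | .v => 3) := fun a => by
    cases a
    · exact h0
    · rfl
    · rfl
    · exact hv
  rcases phi_cases (φ 1) (φ ω) (fun a => by rw [← e, ← e]; exact h3 a) with ⟨h1, h2⟩ | ⟨h1, h2⟩
  · refine Or.inl fun a => ?_
    rw [e, h1, h2]; cases a <;> decide
  · refine Or.inr fun a => ?_
    rw [e, h1, h2]; cases a <;> decide

theorem fix_ra : ∀ v : V4, ra 1 v = v → ra ω v = v → v = (0, 0, 0, v.2.2.2) := by decide +kernel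

theorem vdm : ∀ v : V4, v = ra 0 (sw (0, 0, 0, v.1 + v.2.2.2)) +
    ra 1 (sw (0, 0, 0, v.2.1 + v.2.2.1 + v.2.2.2)) +
    ra ω (sw (0, 0, 0, ω * ω * v.2.1 + ω * v.2.2.1 + v.2.2.2)) +
    ra (ω * ω) (sw (0, 0, 0, ω * v.2.1 + ω * ω * v.2.2.1 + v.2.2.2)) := by decide +kernel

theorem ra_smul (t l : F) (v : V4) : ra t (l • v) = l • ra t v := by
  ext <;> simp [ra] <;> ring

end Mp

theorem end_V4 (f : V4 → V4) (ha : ∀ v w, f (v + w) = f v + f w)
    (hr : ∀ t v, f (ra t v) = ra t (f v)) (hs : ∀ v, f (sw v) = sw (f v))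
    (h3 : ∀ v, v + f v + f (f v) = 0) : (∀ v, f v = ω • v) ∨ ∀ v, f v = (ω * ω) • v := by
  have r4 : ∀ t a : F, ra t (0, 0, 0, a) = (0, 0, 0, a) := fun t a => by simp [ra]
  have e4 : ∀ a : F, f (0, 0, 0, a) = (0, 0, 0, (f (0, 0, 0, a)).2.2.2) := fun a =>
    fix_ra _ (by rw [← hr, r4]) (by rw [← hr, r4])
  have key : ∀ l : F, (∀ a : F, (f (0, 0, 0, a)).2.2.2 = l * a) → ∀ v, f v = l • v := fun l h v => by
    have e : ∀ t a : F, f (ra t (sw (0, 0, 0, a))) = l • ra t (sw (0, 0, 0, a)) := fun t a => by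
      rw [hr, hs, e4, h, ← ra_smul]
      congr 1
      ext <;> simp [sw]
    conv_lhs => rw [vdm v]
    conv_rhs => rw [vdm v]
    rw [ha, ha, ha, e, e, e, e, smul_add, smul_add, smul_add]
  refine (phi_main (fun a => (f (0, 0, 0, a)).2.2.2) (fun a b => ?_) fun a => ?_).imp (key _) (key _)
  · have : ((0, 0, 0, a + b) : V4) = (0, 0, 0, a) + (0, 0, 0, b) := by simp
    simp only [this, ha, Prod.snd_add]
  · have := congrArg (fun v : V4 => v.2.2.2) (h3 (0, 0, 0, a))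
    simp only [Prod.snd_add, Prod.snd_zero] at this
    simp only [← e4]
    exact this

theorem f1_add (k μ : F) (v w : V6) : f1 k μ (v + w) = f1 k μ v + f1 k μ w := by
  ext <;> simp [f1] <;> ring

theorem sg_add (v w : V6) : sg (v + w) = sg v + sg w := by
  ext <;> exact sq_add _ _

theorem sg_sg (v : V6) : sg (sg v) = v := by
  have h : ∀ x : F, x * x * (x * x) = x := by decide
  ext <;> exact h _

theorem sg_smul (l : F) (v : V6) : sg (l • v) = (l * l) • sg v := by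
  ext <;> simp [sg] <;> ring

theorem q6_sg (v : V6) : q6 (sg v) = q6 v * q6 v := by
  simp only [q6, q4, sg, sq_add]; ring

theorem b6_sg (v w : V6) : b6 (sg v) (sg w) = b6 v w * b6 v w := by
  simp only [b6, b4, sg, sq_add]; ring

namespace Mp

theorem co_add (v w : V6) (i : Fin 8) : co (v + w) i = co v i + co w i := by
  fin_cases i <;> simp [co] <;> ring

theorem co_smul (l : F) (v : V6) (i : Fin 8) : co (l • v) i = l * co v i := by
  fin_cases i <;> simp [co] <;> ring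

/-- `pm π` as a linear map -/
def pmL (π : S8) : V6 →ₗ[F] V6 where
  toFun := pm π
  map_add' v w := by simp only [pm, co_add, add_smul, Finset.sum_add_distrib]
  map_smul' l v := by simp only [pm, co_smul, mul_smul, Finset.smul_sum, RingHom.id_apply]

theorem pmL_apply (π : S8) (v : V6) : pmL π v = pm π v := rfl

/-- linear maps -/
def Lin (f : V6 → V6) : Prop := (∀ v w, f (v + w) = f v + f w) ∧ ∀ (l : F) v, f (l • v) = l • f v

/-- agreement on the basis -/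
def Ag (f g : V6 → V6) : Prop := f ((1, 0, 0, 0), 0, 0) = g ((1, 0, 0, 0), 0, 0) ∧
  f ((0, 1, 0, 0), 0, 0) = g ((0, 1, 0, 0), 0, 0) ∧ f ((0, 0, 1, 0), 0, 0) = g ((0, 0, 1, 0), 0, 0) ∧
  f ((0, 0, 0, 1), 0, 0) = g ((0, 0, 0, 1), 0, 0) ∧ f ((0, 0, 0, 0), 1, 0) = g ((0, 0, 0, 0), 1, 0) ∧
  f ((0, 0, 0, 0), 0, 1) = g ((0, 0, 0, 0), 0, 1)

instance instDecAg (f g : V6 → V6) : Decidable (Ag f g) := inferInstanceAs (Decidable (_ ∧ _))

theorem dec (v : V6) : v = v.1.1 • (((1, 0, 0, 0), 0, 0) : V6) + v.1.2.1 • (((0, 1, 0, 0), 0, 0) : V6) +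
    v.1.2.2.1 • (((0, 0, 1, 0), 0, 0) : V6) + v.1.2.2.2 • (((0, 0, 0, 1), 0, 0) : V6) +
    v.2.1 • (((0, 0, 0, 0), 1, 0) : V6) + v.2.2 • (((0, 0, 0, 0), 0, 1) : V6) := by
  ext <;> simp

theorem Lin.val {f : V6 → V6} (h : Lin f) (v : V6) : f v = v.1.1 • f ((1, 0, 0, 0), 0, 0) +
    v.1.2.1 • f ((0, 1, 0, 0), 0, 0) + v.1.2.2.1 • f ((0, 0, 1, 0), 0, 0) +
    v.1.2.2.2 • f ((0, 0, 0, 1), 0, 0) + v.2.1 • f ((0, 0, 0, 0), 1, 0) +
    v.2.2 • f ((0, 0, 0, 0), 0, 1) := by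
  rw [← h.2, ← h.2, ← h.2, ← h.2, ← h.2, ← h.2, ← h.1, ← h.1, ← h.1, ← h.1, ← h.1, ← dec]

theorem Ag.ext {f g : V6 → V6} (h : Ag f g) (hf : Lin f) (hg : Lin g) (v : V6) : f v = g v := by
  rw [hf.val, hg.val, h.1, h.2.1, h.2.2.1, h.2.2.2.1, h.2.2.2.2.1, h.2.2.2.2.2]

theorem Lin.comp {f g : V6 → V6} (hf : Lin f) (hg : Lin g) : Lin fun v => f (g v) :=
  ⟨fun v w => by beta_reduce; rw [hg.1, hf.1], fun l v => by beta_reduce; rw [hg.2, hf.2]⟩

theorem lin_id : Lin fun v => v := ⟨fun _ _ => rfl, fun _ _ => rfl⟩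

theorem lin_pm (π : S8) : Lin (pm π) := ⟨(pmL π).map_add, (pmL π).map_smul⟩

theorem lin_f1 (k μ : F) : Lin (f1 k μ) :=
  ⟨f1_add k μ, fun l v => by ext <;> simp [f1] <;> ring⟩

theorem lin_ra (t : F) : Lin (up (ra t)) :=
  ⟨fun v w => by ext <;> simp [up, ra] <;> ring, fun l v => by ext <;> simp [up, ra] <;> ring⟩

theorem lin_sw : Lin (up sw) := ⟨fun _ _ => rfl, fun _ _ => rfl⟩

theorem lin_rh : Lin (up rh) :=
  ⟨fun v w => by ext <;> simp [up, rh] <;> ring, fun l v => by ext <;> simp [up, rh] <;> ring⟩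

theorem lin_rot (n : F) : Lin (rot n) :=
  ⟨fun v w => by ext <;> simp [rot] <;> ring, fun l v => by ext <;> simp [rot] <;> ring⟩

theorem sum_pt : ∑ i, pt i = 0 := by decide +kernel

theorem co_pt : ∀ i j : Fin 8, co (pt j) i =
    (if i = j then 1 else 0) + (if j = 7 then 1 else 0) + if i = 4 then 1 else 0 := by decide +kernel

theorem sum_co (v : V6) : ∑ i, co v i = 0 := by
  have h : ∀ a b : F, ω * a + ω * ω * b + (ω * ω * a + ω * b) + (a + b) = 0 := by decide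
  have h' : ∀ a b : F, a + b + (ω * ω * a + ω * b) + (ω * a + ω * ω * b) = 0 := by decide
  simp only [Fin.sum_univ_eight, co]
  simp
  linear_combination h v.2.1 v.2.2 + h' v.1.2.1 v.1.2.2.1 +
    (2 * v.1.1 + 2 * v.1.2.2.2 + 2 * (ω * v.2.1 + ω * ω * v.2.2)) * t2

theorem pm_pt1 (π : S8) (j : Fin 8) : pm π (pt j) = pt (π j) + pt (π 4) := by
  have s : ∑ i, pt (π i) = 0 := by rw [Equiv.sum_comp π pt, sum_pt]
  simp only [pm, co_pt, add_smul, Finset.sum_add_distrib, ite_smul, one_smul, zero_smul,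
    Finset.sum_ite_eq', Finset.mem_univ, if_true]
  split_ifs
  · rw [s, add_zero]
  · rw [Finset.sum_const_zero, add_zero]

theorem sg_pt : ∀ i, sg (pt i) = pt i := by decide +kernel

theorem q6_pt : ∀ i j, q6 (pt i + pt j) = if i = j then 0 else 1 := by decide +kernel

theorem pt4 : pt 4 = 0 := rfl

theorem pt_eq : ∀ i j k l, pt k + pt l = pt i + pt j → i ≠ j → k = i ∨ k = j := by decide +kernel

/-- `sg` as an additive map -/
def sgA : V6 →+ V6 := AddMonoidHom.mk' sg sg_add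

theorem sg_sum (a : Fin 8 → F) (x : Fin 8 → V6) : sg (∑ i, a i • x i) = ∑ i, (a i * a i) • sg (x i) := by
  have := map_sum sgA (fun i => a i • x i) Finset.univ
  simp only [← sg_smul]
  exact this

end Mp

theorem pm_one (v : V6) : pm 1 v = v :=
  (by decide +kernel : Ag (pm 1) fun v => v).ext (lin_pm 1) lin_id v

theorem pm_add (π : S8) (v w : V6) : pm π (v + w) = pm π v + pm π w := (pmL π).map_add v w

theorem pm_smul (π : S8) (l : F) (v : V6) : pm π (l • v) = l • pm π v := (pmL π).map_smul l v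

theorem pm_zero (π : S8) : pm π 0 = 0 := (pmL π).map_zero

namespace Mp

theorem pm_sum (π : S8) (a : Fin 8 → F) (x : Fin 8 → V6) :
    pm π (∑ i, a i • x i) = ∑ i, a i • pm π (x i) := by
  have := map_sum (pmL π) (fun i => a i • x i) Finset.univ
  simp only [← pm_smul]
  exact this

theorem sum_eq (v : V6) : ∑ i, co v i • pt i = v := pm_one v

theorem pm_eq (π : S8) (v : V6) : pm π v = ∑ i, co v i • pm π (pt i) := by
  rw [← pm_sum, sum_eq]

theorem b6_sum (s : Finset (Fin 8)) (a : Fin 8 → F) (x : Fin 8 → V6) (w : V6) :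
    b6 (∑ i ∈ s, a i • x i) w = ∑ i ∈ s, a i * b6 (x i) w := by
  induction s using Finset.induction_on with
  | empty => simp [b6, b4]
  | insert i s hi ih => rw [Finset.sum_insert hi, Finset.sum_insert hi, b6_add, b6_smul, ih]

theorem q6_sum (s : Finset (Fin 8)) (a : Fin 8 → F) (x y : Fin 8 → V6) (hq : ∀ i, q6 (x i) = q6 (y i))
    (hb : ∀ i j, b6 (x i) (x j) = b6 (y i) (y j)) :
    q6 (∑ i ∈ s, a i • x i) = q6 (∑ i ∈ s, a i • y i) := by
  induction s using Finset.induction_on with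
  | empty => simp
  | insert i s hi ih =>
    rw [Finset.sum_insert hi, Finset.sum_insert hi, q6_add, q6_add, q6_smul, q6_smul, ih, hq, b6_smul,
      b6_smul, b6_comm (x i), b6_comm (y i), b6_sum, b6_sum]
    simp only [hb]

theorem b6_q6 (v w : V6) : b6 v w = q6 (v + w) - q6 v - q6 w := by rw [q6_add]; ring

end Mp

theorem pm_mul (π κ : S8) (v : V6) : pm (π * κ) v = pm π (pm κ v) := by
  show ∑ i, co v i • pt ((π * κ) i) = pm π (∑ i, co v i • pt (κ i))
  rw [pm_sum]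
  simp only [pm_pt1, smul_add, Finset.sum_add_distrib, ← Finset.sum_smul, sum_co, zero_smul, add_zero,
    Equiv.Perm.mul_apply]

theorem pm_pt (π : S8) (i j : Fin 8) : pm π (pt i + pt j) = pt (π i) + pt (π j) := by
  rw [pm_add, pm_pt1, pm_pt1, add_add_add_comm, two6, add_zero]

theorem q6_pm (π : S8) (v : V6) : q6 (pm π v) = q6 v := by
  have h : ∀ i j, q6 (pm π (pt i + pt j)) = q6 (pt i + pt j) := fun i j => by
    rw [pm_pt, q6_pt, q6_pt]; simp
  have h1 : ∀ i, q6 (pm π (pt i)) = q6 (pt i) := fun i => by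
    have := h i 4
    rwa [pt4, add_zero] at this
  rw [pm_eq]
  conv_rhs => rw [← sum_eq v]
  exact q6_sum _ _ _ _ h1 fun i j => by rw [b6_q6, b6_q6, ← pm_add, h, h1, h1]

theorem b6_pm (π : S8) (v w : V6) : b6 (pm π v) (pm π w) = b6 v w := by
  rw [b6_q6, ← pm_add, q6_pm, q6_pm, q6_pm, b6_q6]

theorem sg_pm (π : S8) (v : V6) : sg (pm π v) = pm π (sg v) := by
  rw [pm_eq, sg_sum]
  conv_rhs => rw [← sum_eq v, sg_sum, pm_sum]
  simp only [sg_pt, pm_pt1, sg_add]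

namespace Mp

theorem pm_inv (π : S8) (v : V6) : pm π⁻¹ (pm π v) = v := by rw [← pm_mul, inv_mul_cancel, pm_one]

theorem pm_inv' (π : S8) (v : V6) : pm π (pm π⁻¹ v) = v := by rw [← pm_mul, mul_inv_cancel, pm_one]

theorem pm_injective (π : S8) : Function.Injective (pm π) := fun v w h => by
  rw [← pm_inv π v, h, pm_inv]

theorem pm_ne (π : S8) (v : V6) : pm π v ≠ 0 ↔ v ≠ 0 :=
  not_congr ⟨fun e => pm_injective π (e.trans (pm_zero π).symm), fun e => by rw [e, pm_zero]⟩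

end Mp

theorem NV_pm (π : S8) (v : V6) : NV (pm π v) ↔ NV v := by
  simp only [NV, pm_ne, q6_pm, sg_pm, ← pm_smul, (pm_injective π).eq_iff]

theorem DV_pm (π : S8) (v : V6) : DV (pm π v) ↔ DV v := by
  simp only [DV, q6_pm, sg_pm, ← pm_add]

theorem CV_pm (π : S8) (v : V6) : CV (pm π v) ↔ CV v := by
  simp only [CV, pm_ne, q6_pm, NV_pm, DV_pm]

theorem pm_rat {π : S8} (h : ∀ v, sg v = v → pm π v = v) : π = 1 := by
  have k : ∀ i j, i ≠ j → π i = i ∨ π i = j := fun i j hij =>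
    pt_eq i j _ _ (by rw [← pm_pt]; exact h _ (by rw [sg_add, sg_pt, sg_pt])) hij
  ext i
  obtain ⟨j, k', h1, h2, h3⟩ := (by decide : ∀ i : Fin 8, ∃ j k, i ≠ j ∧ i ≠ k ∧ j ≠ k) i
  rcases k i j h1 with e | e
  · rw [e]; rfl
  · rcases k i k' h2 with e' | e'
    · rw [e']; rfl
    · exact absurd (e.symm.trans e') h3

theorem pm_inj {π κ : S8} (h : ∀ v, pm π v = pm κ v) : π = κ := by
  have : κ⁻¹ * π = 1 := pm_rat fun v _ => by rw [pm_mul, h, pm_inv]
  exact (inv_mul_eq_one.1 this).symm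

theorem pm_pA (t : F) (v : V6) : pm (pA t) v = up (ra t) v :=
  ((by decide +kernel : ∀ t, Ag (pm (pA t)) (up (ra t))) t).ext (lin_pm _) (lin_ra t) v

theorem pm_pB (μ : F) (v : V6) : pm (pB μ) v = f1 1 μ v :=
  ((by decide +kernel : ∀ t, Ag (pm (pB t)) (f1 1 t)) μ).ext (lin_pm _) (lin_f1 1 μ) v

theorem pm_pW (v : V6) : pm pW v = up sw v :=
  (by decide +kernel : Ag (pm pW) (up sw)).ext (lin_pm _) lin_sw v

theorem pm_pH (v : V6) : pm pH v = up rh v :=
  (by decide +kernel : Ag (pm pH) (up rh)).ext (lin_pm _) lin_rh v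

theorem pm_pR (v : V6) : pm pR v = rot ω v :=
  (by decide +kernel : Ag (pm pR) (rot ω)).ext (lin_pm _) (lin_rot ω) v

theorem pm_pM (a b c d ρ σ : F) : pm pM ((a, b, c, d), ρ, σ) = ((a, ρ, σ, d), b, c) :=
  (by decide +kernel : Ag (pm pM) fun v => ((v.1.1, v.2.1, v.2.2, v.1.2.2.2), v.1.2.1, v.1.2.2.1)).ext
    (lin_pm _) ⟨fun _ _ => rfl, fun _ _ => rfl⟩ _

theorem pm_pO (a b c d ρ σ : F) : pm pO ((a, b, c, d), ρ, σ) = ((a, σ, ρ, d), c, b) :=
  (by decide +kernel : Ag (pm pO) fun v => ((v.1.1, v.2.2, v.2.1, v.1.2.2.2), v.1.2.2.1, v.1.2.1)).ext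
    (lin_pm _) ⟨fun _ _ => rfl, fun _ _ => rfl⟩ _

theorem pm_pS (a b c d ρ σ : F) : pm pS ((a, b, c, d), ρ, σ) = ((a, c, b, d), σ, ρ) :=
  (by decide +kernel : Ag (pm pS) fun v => ((v.1.1, v.1.2.2.1, v.1.2.1, v.1.2.2.2), v.2.2, v.2.1)).ext
    (lin_pm _) ⟨fun _ _ => rfl, fun _ _ => rfl⟩ _

theorem pm_Fx3 {π : S8} (h : Fx3 π) (v : V4) (ρ σ : F) :
    pm π (v, ρ, σ) = ((pm π (v, 0, 0)).1, ρ, σ) := by
  have f : ∀ ρ σ : F, pm π (0, ρ, σ) = (0, ρ, σ) := fun ρ σ => by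
    have e := (by decide +kernel : ∀ ρ σ : F, ((0, ρ, σ) : V6) =
      (ρ + σ) • (pt 5 + pt 6) + (ω * ρ + ω * ω * σ) • (pt 6 + pt 7)) ρ σ
    rw [e, pm_add, pm_smul, pm_smul, pm_pt, pm_pt, h.1, h.2.1, h.2.2]
  have b : ∀ ρ σ : F, b6 (pm π (v, 0, 0)) (0, ρ, σ) = 0 := fun ρ σ => by
    rw [← f, b6_pm]; simp [b6, b4]
  have b1 := b 1 0
  have b2 := b 0 1
  simp [b6, b4] at b1 b2
  have e : ((v, ρ, σ) : V6) = (v, 0, 0) + (0, ρ, σ) := by simp
  rw [e, pm_add, f]
  ext <;> simp [b1, b2]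

theorem Evn.one : Evn 1 := Equiv.Perm.sign_one

theorem Evn.mul {π κ : S8} (h : Evn π) (h' : Evn κ) : Evn (π * κ) := by
  rw [Evn, Equiv.Perm.sign_mul, h, h', mul_one]

theorem Evn.inv {π : S8} (h : Evn π) : Evn π⁻¹ := by
  rw [Evn, Equiv.Perm.sign_inv, h]

instance instDecEvn (π : S8) : Decidable (Evn π) := inferInstanceAs (Decidable (_ = _))

instance instDecFx3 (π : S8) : Decidable (Fx3 π) := inferInstanceAs (Decidable (_ ∧ _))

theorem evn_all : (∀ t, Evn (pA t)) ∧ (∀ t, Evn (pB t)) ∧ Evn pW ∧ Evn pH ∧ Evn pR ∧ Evn pM ∧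
    Evn pO ∧ Evn pS := by decide +kernel

theorem fx3_all : (∀ t, Fx3 (pA t)) ∧ Fx3 pW ∧ Fx3 pH := by decide +kernel

theorem pA_add (s t : F) : pA (s + t) = pA s * pA t := by revert s t; decide +kernel

theorem pB_add (s t : F) : pB (s + t) = pB s * pB t := by revert s t; decide +kernel

theorem pA_inj {s t : F} (h : pA s = pA t) : s = t := by revert s t; decide +kernel

end Cfsg.Agent.LG
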