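import Cfsg.Agent.LG.Maps

set_option autoImplicit false
set_option maxRecDepth 100000
set_option synthInstance.maxSize 4096

namespace Cfsg.Agent.LG

open Subgroup H29 Mp
open scoped commutatorElement

namespace Mq

def gn : Fin 7 → S8 := ![pA 1, pA ω, pA (ω * ω), pW, pB 1, pB ω, pB (ω * ω)]

def wd : Fin 8 → Fin 8 → List (Fin 7) :=
  ![![[], [], [3, 1, 3, 2, 3, 2], [3, 2, 3, 1, 3, 1], [0, 3], [4, 0, 3, 4], [6, 0, 3, 6], [5, 0, 3, 5]],
    ![[], [], [3, 2, 3, 1, 3, 0], [3, 1, 3, 2, 3, 0], [3, 0], [4, 3, 4, 0], [6, 3, 6, 0], [5, 3, 5, 0]],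
    ![[3, 1, 3, 2, 3, 2], [3, 2, 3, 1, 3, 0], [], [0], [1, 3, 1], [4, 1, 3, 4, 1], [6, 1, 3, 6, 1],
      [5, 1, 3, 5, 1]],
    ![[3, 2, 3, 1, 3, 1], [3, 1, 3, 2, 3, 0], [0], [], [2, 3, 2], [4, 2, 3, 4, 2], [6, 2, 3, 6, 2],
      [5, 2, 3, 5, 2]],
    ![[0, 3], [3, 0], [1, 3, 1], [2, 3, 2], [], [3, 4, 3, 4, 3, 0], [3, 6, 3, 6, 3, 0],
      [3, 5, 3, 5, 3, 0]],
    ![[4, 0, 3, 4], [4, 3, 4, 0], [4, 1, 3, 4, 1], [4, 2, 3, 4, 2], [3, 4, 3, 4, 3, 0], [],
      [5, 3, 5, 3, 5, 3, 0], [6, 3, 6, 3, 6, 3, 0]],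
    ![[6, 0, 3, 6], [6, 3, 6, 0], [6, 1, 3, 6, 1], [6, 2, 3, 6, 2], [3, 6, 3, 6, 3, 0],
      [5, 3, 5, 3, 5, 3, 0], [], [4, 3, 4, 3, 4, 3, 0]],
    ![[5, 0, 3, 5], [5, 3, 5, 0], [5, 1, 3, 5, 1], [5, 2, 3, 5, 2], [3, 5, 3, 5, 3, 0],
      [6, 3, 6, 3, 6, 3, 0], [4, 3, 4, 3, 4, 3, 0], []]]

theorem wd_ok : ∀ a b : Fin 8, a ≠ b →
    Equiv.swap 0 1 * Equiv.swap a b = ((wd a b).map gn).prod := by decide +kernel

theorem evn_swap {a b : Fin 8} (h : a ≠ b) (π : S8) : Evn (Equiv.swap a b * π) ↔ ¬ Evn π := by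
  rw [Evn, Evn, Equiv.Perm.sign_mul, Equiv.Perm.sign_swap h]
  rcases Int.units_eq_one_or (Equiv.Perm.sign π) with e | e <;> rw [e] <;> decide

theorem evn_swap' {a b : Fin 8} (h : a ≠ b) (π : S8) : Evn (π * Equiv.swap a b) ↔ ¬ Evn π := by
  rw [← evn_swap h, Evn, Evn, Equiv.Perm.sign_mul, Equiv.Perm.sign_mul, mul_comm]

/-- two vectors whose coefficients have the same distribution are conjugate -/
theorem orb (v w : V6) (c : F) {a b : Fin 8} (hab : a ≠ b) (hw : pm (Equiv.swap a b) w = w)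
    (h : ∀ x, (Finset.univ.filter fun i => co w i = x).card =
      (Finset.univ.filter fun i => co v i + c = x).card) : ∃ π, Evn π ∧ pm π w = v := by
  obtain ⟨π, hπ⟩ : ∃ π : S8, ∀ i, co v (π i) + c = co w i :=
    ⟨_, Equiv.ofFiberEquiv_map (f := co w) (g := fun i => co v i + c) fun x =>
      Fintype.equivOfCardEq (by rw [Fintype.card_subtype, Fintype.card_subtype]; exact h x)⟩
  have e : pm π w = v := by
    have s : ∑ i, pt (π i) = 0 := by rw [Equiv.sum_comp π pt, sum_pt]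
    rw [pm]
    simp only [← hπ, add_smul, Finset.sum_add_distrib, ← Finset.smul_sum, s, smul_zero, add_zero]
    rw [Equiv.sum_comp π fun i => co v i • pt i, sum_eq]
  by_cases he : Evn π
  · exact ⟨π, he, e⟩
  · exact ⟨π * Equiv.swap a b, (evn_swap' hab π).2 he, by rw [pm_mul, hw, e]⟩

theorem orb' (v w : V6) (c : F) {a b : Fin 8} (hab : a ≠ b) (hw : pm (Equiv.swap a b) w = w)
    (h : ∀ x, (Finset.univ.filter fun i => co w i = x).card =
      (Finset.univ.filter fun i => co v i + c = x).card) : ∃ π, Evn π ∧ pm π v = w := by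
  obtain ⟨π, e, h⟩ := orb v w c hab hw h
  exact ⟨π⁻¹, e.inv, by rw [← h, pm_inv]⟩

theorem cntD : ∀ v : V6, DV v → ∃ c : F, ∀ x : F, (if x = ω then 5 else 1) =
    (Finset.univ.filter fun i => co v i + c = x).card := by decide +kernel

theorem cntN : ∀ v : V6, sg v = v → v ≠ 0 → q6 v = 0 → ∀ x : F, (if x = 0 ∨ x = 1 then 4 else 0) =
    (Finset.univ.filter fun i => co v i + 0 = x).card := by decide +kernel

theorem cntC : ∀ v : V6, CV v → ∀ x : F, 2 =
    (Finset.univ.filter fun i => co v i + 0 = x).card := by decide +kernel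

theorem sq01 : ∀ x : F, x = x * x → x = 0 ∨ x = 1 := by decide

theorem cyc2 {π : S8} (h : π * π = 1) (n : π ≠ 1) :
    ∃ k : ℕ, π.cycleType = Multiset.replicate (k + 1) 2 ∧ π.support.card = 2 * (k + 1) := by
  have o : orderOf π = 2 := orderOf_eq_prime (by rw [pow_two, h]) n
  obtain ⟨k, hk⟩ := Equiv.Perm.cycleType_prime_order (σ := π) (by rw [o]; exact Nat.prime_two)
  rw [o] at hk
  exact ⟨k, hk, by rw [← Equiv.Perm.sum_cycleType, hk, Multiset.sum_replicate, smul_eq_mul, mul_comm]⟩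

theorem conj2 {π τ : S8} (h : π * π = 1) (n : π ≠ 1) (h' : τ * τ = 1) (n' : τ ≠ 1)
    (c : π.support.card = τ.support.card) {a b : Fin 8} (hab : a ≠ b)
    (hc : Equiv.swap a b * τ * (Equiv.swap a b)⁻¹ = τ) : ∃ κ, Evn κ ∧ κ * π * κ⁻¹ = τ := by
  obtain ⟨k, h1, h2⟩ := cyc2 h n
  obtain ⟨k', h1', h2'⟩ := cyc2 h' n'
  have : k = k' := by omega
  subst this
  obtain ⟨κ, hκ⟩ := isConj_iff.1 (Equiv.Perm.isConj_iff_cycleType_eq.2 (h1.trans h1'.symm))
  by_cases he : Evn κ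
  · exact ⟨κ, he, hκ⟩
  · refine ⟨Equiv.swap a b * κ, (evn_swap hab κ).2 he, ?_⟩
    rw [← hc, ← hκ]; group

end Mq

open Mq

theorem gen_A8 (H : Subgroup S8) (hA : ∀ t, pA t ∈ H) (hW : pW ∈ H) (hB : ∀ μ, pB μ ∈ H) {π : S8}
    (h : Evn π) : π ∈ H := by
  have g : ∀ i, gn i ∈ H := fun i => by
    fin_cases i
    exacts [hA 1, hA ω, hA (ω * ω), hW, hB 1, hB ω, hB (ω * ω)]
  have s : ∀ a b : Fin 8, a ≠ b → Equiv.swap 0 1 * Equiv.swap a b ∈ H := fun a b hab => by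
    rw [wd_ok a b hab]
    exact H.list_prod_mem fun x hx => by
      obtain ⟨i, -, rfl⟩ := List.mem_map.1 hx
      exact g i
  suffices k : (Evn π → π ∈ H) ∧ (¬ Evn π → Equiv.swap 0 1 * π ∈ H) from k.1 h
  clear h
  induction π using Equiv.Perm.swap_induction_on with
  | one => exact ⟨fun _ => H.one_mem, fun c => absurd Evn.one c⟩
  | swap_mul f a b hab ih =>
    refine ⟨fun e => ?_, fun e => ?_⟩
    · have := H.mul_mem (H.inv_mem (s a b hab)) (ih.2 ((evn_swap hab f).1 e))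
      rwa [mul_inv_rev, mul_assoc, inv_mul_cancel_left, Equiv.swap_inv] at this
    · rw [← mul_assoc]
      exact H.mul_mem (s a b hab) (ih.1 (not_not.1 fun c => e ((evn_swap hab f).2 c)))

theorem DV_orb {v : V6} (h : DV v) : ∃ π, Evn π ∧ v = pm π (0, 1, 0) := by
  obtain ⟨c, hc⟩ := cntD v h
  obtain ⟨π, e, h⟩ := orb v (0, 1, 0) c (a := 0) (b := 1) (by decide) (by decide +kernel) fun x => by
    rw [← hc]; revert x; decide +kernel
  exact ⟨π, e, h.symm⟩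

theorem NV_orb1 {v : V6} (h : sg v = v) (h0 : v ≠ 0) (q : q6 v = 0) :
    ∃ π, Evn π ∧ pm π v = ((0, 0, 0, 1), 0, 0) :=
  orb' v _ 0 (a := 0) (b := 1) (by decide) (by decide +kernel) fun x => by
    rw [← cntN v h h0 q]; revert x; decide +kernel

theorem NV_orb {v : V6} (h : NV v) : ∃ π a, Evn π ∧ a ≠ 0 ∧ pm π v = ((0, 0, 0, a), 0, 0) := by
  obtain ⟨h0, q, l, hl⟩ := h
  have l0 : l ≠ 0 := fun c => h0 (by
    rw [c, zero_smul] at hl
    rw [← sg_sg v, hl]; rfl)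
  have l3 : l * l * l = 1 := (by decide : ∀ l : F, l ≠ 0 → l * l * l = 1) l l0
  obtain ⟨π, e, h⟩ := NV_orb1 (v := (l * l) • v)
    (by rw [sg_smul, hl, smul_smul]; congr 1; linear_combination l * l * l3)
    (smul_ne_zero (mul_ne_zero l0 l0) h0) (by rw [q6_smul, q, mul_zero])
  refine ⟨π, l, e, l0, ?_⟩
  have : v = l • (l * l) • v := by rw [smul_smul, ← mul_assoc, l3, one_smul]
  rw [this, pm_smul, h]
  ext <;> simp

theorem CV_orb {v : V6} (h : CV v) : ∃ π, Evn π ∧ pm π v = ((0, 0, 1, 0), 1, 0) :=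
  orb' v _ 0 (a := 0) (b := 4) (by decide) (by decide +kernel) fun x => by
    rw [← cntC v h]; revert x; decide +kernel

theorem not_NV_DV {v : V6} (h : NV v) : ¬ DV v := by
  obtain ⟨-, q, l, hl⟩ := h
  rintro ⟨-, d⟩
  have : v + l • v = (1 + l) • v := by rw [add_smul, one_smul]
  rw [hl, this, q6_smul, q, mul_zero] at d
  exact zero_ne_one d

theorem fx3_of_fix {π : S8} {ρ : F} (h0 : ρ ≠ 0) (h : pm π (0, ρ, 0) = (0, ρ, 0)) : Fx3 π := by
  have h1 : pm π (0, 1, 0) = (0, 1, 0) := by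
    have e : ((0, ρ, 0) : V6) = ρ • ((0, 1, 0) : V6) := by ext <;> simp
    rw [e, pm_smul] at h
    exact smul_right_injective _ h0 h
  have h2 : pm π (sg (0, 1, 0)) = sg (0, 1, 0) := by rw [← sg_pm, h1]
  have k : ∀ (i j : Fin 8) (a b : F), i ≠ j → pt i + pt j = a • ((0, 1, 0) : V6) + b • sg (0, 1, 0) →
      π i = i ∨ π i = j := fun i j a b hij e =>
    pt_eq i j _ _ (by rw [← pm_pt, e, pm_add, pm_smul, pm_smul, h1, h2]) hij
  have a1 := k 5 6 (ω * ω) ω (by decide) (by decide)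
  have a2 := k 5 7 ω (ω * ω) (by decide) (by decide)
  have b1 := k 6 5 (ω * ω) ω (by decide) (by decide)
  have b2 := k 6 7 1 1 (by decide) (by decide)
  have c1 := k 7 5 ω (ω * ω) (by decide) (by decide)
  have c2 := k 7 6 1 1 (by decide) (by decide)
  exact ⟨by omega, by omega, by omega⟩

/-- the involutions of `A₈` -/
theorem inv_S8 {π : S8} (e : Evn π) (h : π * π = 1) :
    π = 1 ∨ ∃ κ, Evn κ ∧ (κ * π * κ⁻¹ = pA 1 ∨ κ * π * κ⁻¹ = pO) := by
  by_cases n : π = 1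
  · exact Or.inl n
  obtain ⟨k, h1, h2⟩ := cyc2 h n
  have l : π.support.card ≤ 8 := Finset.card_le_univ _
  rw [Evn, Equiv.Perm.sign_of_cycleType, Equiv.Perm.sum_cycleType, h1, h2, Multiset.card_replicate] at e
  have : k = 1 ∨ k = 3 := by
    have : k ≤ 3 := by omega
    interval_cases k <;> first | omega | exact absurd e (by decide)
  rcases this with rfl | rfl
  · obtain ⟨κ, a, b⟩ := conj2 (τ := pA 1) h n (by decide) (by decide) (h2.trans (by decide))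
      (a := 0) (b := 1) (by decide) (by decide)
    exact Or.inr ⟨κ, a, Or.inl b⟩
  · obtain ⟨κ, a, b⟩ := conj2 (τ := pO) h n (by decide) (by decide) (h2.trans (by decide))
      (a := 0) (b := 4) (by decide) (by decide)
    exact Or.inr ⟨κ, a, Or.inr b⟩

namespace Mq

theorem conj_fix {π : S8} (κ : S8) {i : Fin 8} (hi : π i = i) : (κ * π * κ⁻¹) (κ i) = κ i := by
  simp [hi]

theorem inv_fix' {π : S8} (e : Evn π) (h : π * π = 1) {i : Fin 8} (hi : π i = i) (n : π ≠ 1) :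
    ∃ κ, Evn κ ∧ κ * π * κ⁻¹ = pA 1 := by
  obtain ⟨κ, a, b | b⟩ := (inv_S8 e h).resolve_left n
  · exact ⟨κ, a, b⟩
  · exact absurd (b ▸ conj_fix κ hi) ((by decide : ∀ j, pO j ≠ j) _)

theorem fix4' : ∀ a b c d : Fin 8, ∀ h : ∀ i, (![a, b, c, d, 4, 5, 6, 7] : Fin 8 → Fin 8)
    ((![a, b, c, d, 4, 5, 6, 7] : Fin 8 → Fin 8) i) = i, Evn (mkP _ h) → ∃ t, mkP _ h = pA t := by
  decide +kernel

theorem fix4 {π : S8} (e : Evn π) (h : π * π = 1) (f : ∀ i, pA 1 i = i → π i = i) : ∃ t, π = pA t := by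
  have l : (π : Fin 8 → Fin 8) = ![π 0, π 1, π 2, π 3, 4, 5, 6, 7] := by
    funext i
    fin_cases i
    exacts [rfl, rfl, rfl, rfl, f 4 (by decide), f 5 (by decide), f 6 (by decide), f 7 (by decide)]
  have h' : ∀ i, (![π 0, π 1, π 2, π 3, 4, 5, 6, 7] : Fin 8 → Fin 8)
      ((![π 0, π 1, π 2, π 3, 4, 5, 6, 7] : Fin 8 → Fin 8) i) = i := fun i => by
    rw [← l, ← Equiv.Perm.mul_apply, h]; rfl
  have m : π = mkP _ h' := Equiv.ext fun i => congrFun l i
  rw [m] at e ⊢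
  exact fix4' _ _ _ _ h' e

theorem conjA {π : S8} (e : Evn π) (f : Fx3 π) (h : π * π = 1) (n : π ≠ 1) :
    ∃ g : S8, g * π * g⁻¹ = pA 1 ∧ ∀ κ, Evn κ → Fx3 κ → κ * κ = 1 → Commute π κ →
      ∃ t, g * κ * g⁻¹ = pA t := by
  obtain ⟨g, eg, hg⟩ := inv_fix' e h f.1 n
  refine ⟨g, hg, fun κ e' f' h' c => fix4 ((eg.mul e').mul eg.inv) (by rw [conj_mul, h']; group) ?_⟩
  have q : ∀ i, pA 1 i = i ↔ 4 ≤ i.val := by decide
  have c' : pA 1 * (g * κ * g⁻¹) = g * κ * g⁻¹ * pA 1 := by rw [← hg, conj_mul, conj_mul, c.eq]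
  intro j hj
  have k : pA 1 ((g * κ * g⁻¹) j) = (g * κ * g⁻¹) j := by
    rw [← Equiv.Perm.mul_apply, c', Equiv.Perm.mul_apply, hj]
  have a5 := (q _).1 (hg ▸ conj_fix g f.1)
  have a6 := (q _).1 (hg ▸ conj_fix g f.2.1)
  have a7 := (q _).1 (hg ▸ conj_fix g f.2.2)
  have b5 := conj_fix g f'.1
  have b6 := conj_fix g f'.2.1
  have b7 := conj_fix g f'.2.2
  have d1 : g 5 ≠ g 6 := g.injective.ne (by decide)
  have d2 : g 5 ≠ g 7 := g.injective.ne (by decide)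
  have d3 : g 6 ≠ g 7 := g.injective.ne (by decide)
  by_cases j5 : j = g 5
  · rw [j5, b5]
  by_cases j6 : j = g 6
  · rw [j6, b6]
  by_cases j7 : j = g 7
  · rw [j7, b7]
  have k5 : (g * κ * g⁻¹) j ≠ g 5 := fun c => j5 ((g * κ * g⁻¹).injective (c.trans b5.symm))
  have k6 : (g * κ * g⁻¹) j ≠ g 6 := fun c => j6 ((g * κ * g⁻¹).injective (c.trans b6.symm))
  have k7 : (g * κ * g⁻¹) j ≠ g 7 := fun c => j7 ((g * κ * g⁻¹).injective (c.trans b7.symm))
  rw [q] at hj k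
  generalize (g * κ * g⁻¹) j = x at *
  generalize g 5 = a at *
  generalize g 6 = b at *
  generalize g 7 = c at *
  omega

end Mq

theorem inv_fix {π : S8} (e : Evn π) (h : π * π = 1) {i : Fin 8} (hi : π i = i) :
    ∃ κ, Evn κ ∧ Fx3 (κ * π * κ⁻¹) := by
  by_cases n : π = 1
  · exact ⟨1, Evn.one, by rw [n]; decide⟩
  obtain ⟨κ, a, b⟩ := inv_fix' e h hi n
  exact ⟨κ, a, b ▸ fx3_all.1 1⟩

theorem card_fix_pA : Nat.card {v : V6 // pm (pA 1) v = v} = 256 := by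
  simp only [pm_pA]
  rw [Nat.card_eq_fintype_card]
  decide +kernel

namespace Mq

theorem pm_pO' (v : V6) : pm pO v = ((v.1.1, v.2.2, v.2.1, v.1.2.2.2), v.1.2.2.1, v.1.2.1) :=
  pm_pO _ _ _ _ _ _

end Mq

theorem card_fix_pO : Nat.card {v : V6 // pm pO v = v} = 256 := by
  simp only [pm_pO']
  rw [Nat.card_eq_fintype_card]
  decide +kernel

theorem card_rat : Nat.card {v : V6 // sg v = v} = 64 := by
  rw [Nat.card_eq_fintype_card]
  decide +kernel

theorem card_rat_pO : Nat.card {v : V6 // sg v = v ∧ pm pO v = v} = 16 := by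
  simp only [pm_pO']
  rw [Nat.card_eq_fintype_card]
  decide +kernel

theorem card_rat_sing : Nat.card {v : V6 // sg v = v ∧ v ≠ 0 ∧ q6 v = 0} = 35 := by
  rw [Nat.card_eq_fintype_card]
  decide +kernel

/-- the fixed vectors of a four-group of `A₅` -/
theorem card_fix_two {π κ : S8} (e : Evn π) (e' : Evn κ) (f : Fx3 π) (f' : Fx3 κ) (h : π * π = 1)
    (h' : κ * κ = 1) (c : Commute π κ) (n : π ≠ 1) (n' : κ ≠ 1) (ne : π ≠ κ) :
    Nat.card {v : V6 // pm π v = v ∧ pm κ v = v} ≤ 64 := by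
  obtain ⟨g, hg, k⟩ := conjA e f h n
  obtain ⟨t, ht⟩ := k κ e' f' h' c
  have t0 : t ≠ 0 := fun z => n' (by
    rw [z] at ht
    exact conj_eq_one_iff.1 ht)
  have t1 : t ≠ 1 := fun z => ne (by
    rw [z, ← hg] at ht
    exact (mul_left_cancel (mul_right_cancel ht)).symm)
  have fx : ∀ {σ : S8} {v : V6}, pm σ v = v → pm (g * σ * g⁻¹) (pm g v) = pm g v := fun {σ v} h => by
    rw [pm_mul, pm_inv, pm_mul, h]
  have z : ∀ t : F, t ≠ 0 → t ≠ 1 → ∀ v : V4, ra 1 v = v → ra t v = v → v = (0, 0, 0, v.2.2.2) := by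
    decide +kernel
  have : Nat.card (F × F × F) = 64 := by simp [F4.card_eq]
  rw [← this]
  refine Nat.card_le_card_of_injective
    (fun v => ((pm g v.1).1.2.2.2, (pm g v.1).2)) fun v w hvw => Subtype.ext (pm_injective g ?_)
  have y : ∀ v : {v : V6 // pm π v = v ∧ pm κ v = v}, (pm g v.1).1 = (0, 0, 0, (pm g v.1).1.2.2.2) :=
    fun v => by
      have a := fx v.2.1
      have b := fx v.2.2
      rw [hg, pm_pA] at a
      rw [ht, pm_pA] at b
      exact z t t0 t1 _ (congrArg Prod.fst a) (congrArg Prod.fst b)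
  simp only [Prod.mk.injEq] at hvw
  exact Prod.ext (by rw [y v, y w, hvw.1]) hvw.2

namespace Mq

theorem comm2 (X : Subgroup S8) (h : ∀ π ∈ X, π * π = 1) {a b : S8} (ha : a ∈ X) (hb : b ∈ X) :
    Commute a b := by
  have i : ∀ π ∈ X, π⁻¹ = π := fun π hπ => inv_eq_of_mul_eq_one_right (h π hπ)
  have := i _ (X.mul_mem ha hb)
  rw [mul_inv_rev, i a ha, i b hb] at this
  exact this.symm

end Mq

/-- 2-subgroups of `A₅` -/
theorem card_two_A5 (X : Subgroup S8) (h : ∀ π ∈ X, Evn π ∧ Fx3 π ∧ π * π = 1) : Nat.card X ≤ 4 := by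
  by_cases hX : X = ⊥
  · rw [hX, Subgroup.card_bot]; omega
  obtain ⟨⟨π, hπ⟩, n⟩ := (Subgroup.ne_bot_iff_exists_ne_one).1 hX
  obtain ⟨g, -, k⟩ := conjA (h π hπ).1 (h π hπ).2.1 (h π hπ).2.2 fun c => n (Subtype.ext c)
  choose t ht using fun κ : X => k κ (h _ κ.2).1 (h _ κ.2).2.1 (h _ κ.2).2.2
    (comm2 X (fun a ha => (h a ha).2.2) hπ κ.2)
  have : Nat.card F = 4 := by simp [F4.card_eq]
  rw [← this]
  refine Nat.card_le_card_of_injective t fun a b hab => Subtype.ext ?_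
  have := (ht a).trans (hab ▸ (ht b).symm)
  exact mul_left_cancel (mul_right_cancel this)

/-- elementary abelian subgroups of `S₈`: a point stabiliser has index at most four, or the group is
regular and self-centralising -/
theorem elem_S8 (X : Subgroup S8) (h : ∀ π ∈ X, π * π = 1) :
    Nat.card X ≤ 4 * Nat.card ↥(X ⊓ MulAction.stabilizer S8 (0 : Fin 8)) ∨
      (Nat.card X ≤ 8 ∧ ∀ κ : S8, (∀ π ∈ X, Commute κ π) → κ ∈ X) := by
  have p : IsPGroup 2 X := fun x => ⟨1, Subtype.ext (by simpa [pow_two] using h _ x.2)⟩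
  obtain ⟨n, hn⟩ := p.card_orbit (0 : Fin 8)
  have c1 : Nat.card X = Nat.card (MulAction.orbit X (0 : Fin 8)) *
      Nat.card (MulAction.stabilizer X (0 : Fin 8)) := by
    rw [← Nat.card_prod, Nat.card_congr (MulAction.orbitProdStabilizerEquivGroup X (0 : Fin 8))]
  have c2 : Nat.card (MulAction.stabilizer X (0 : Fin 8)) =
      Nat.card ↥(X ⊓ MulAction.stabilizer S8 (0 : Fin 8)) :=
    Nat.card_congr ⟨fun x => ⟨x.1.1, x.1.2, x.2⟩, fun x => ⟨⟨x.1, x.2.1⟩, x.2.2⟩, fun _ => rfl,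
      fun _ => rfl⟩
  have l : Nat.card (MulAction.orbit X (0 : Fin 8)) ≤ 8 := by
    simpa using Nat.card_le_card_of_injective (Subtype.val : MulAction.orbit X (0 : Fin 8) → Fin 8)
      Subtype.val_injective
  by_cases n2 : n ≤ 2
  · left
    rw [c1, c2, hn]
    exact Nat.mul_le_mul_right _ (Nat.pow_le_pow_right (by omega) n2)
  right
  have e8 : Nat.card (MulAction.orbit X (0 : Fin 8)) = 8 :=
    le_antisymm l (by rw [hn]; exact Nat.pow_le_pow_right (by omega : 0 < 2) (by omega : 3 ≤ n))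
  have tr : ∀ i : Fin 8, ∃ g ∈ X, g 0 = i := fun i => by
    have : MulAction.orbit X (0 : Fin 8) = Set.univ :=
      Set.eq_of_subset_of_ncard_le (Set.subset_univ _) (by
        rw [Set.ncard_univ, ← Nat.card_coe_set_eq, e8]; simp)
    obtain ⟨g, hg⟩ : i ∈ MulAction.orbit X (0 : Fin 8) := this ▸ Set.mem_univ i
    exact ⟨g, g.2, hg⟩
  have reg : ∀ κ : S8, (∀ π ∈ X, Commute κ π) → κ 0 = 0 → κ = 1 := fun κ c z => Equiv.ext fun i => by
    obtain ⟨g, hg, rfl⟩ := tr i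
    rw [← Equiv.Perm.mul_apply, (c g hg).eq, Equiv.Perm.mul_apply, z]; rfl
  refine ⟨?_, fun κ c => ?_⟩
  · have : Nat.card (Fin 8) = 8 := by simp
    refine le_of_le_of_eq (Nat.card_le_card_of_injective (fun x : X => x.1 0) fun a b hab =>
      Subtype.ext ?_) this
    have := reg (b.1⁻¹ * a.1) (fun π hπ => comm2 X h (X.mul_mem (X.inv_mem b.2) a.2) hπ) (by
      rw [Equiv.Perm.mul_apply, show a.1 0 = b.1 0 from hab]; simp)
    exact (inv_mul_eq_one.1 this).symm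
  · obtain ⟨g, hg, e⟩ := tr (κ 0)
    have := reg (g⁻¹ * κ) (fun π hπ => (comm2 X h (X.inv_mem hg) hπ).mul_left (c π hπ)) (by
      rw [Equiv.Perm.mul_apply, ← e]; simp)
    exact inv_mul_eq_one.1 this ▸ hg

theorem cent_AB {π : S8} (e : Evn π) (hA : ∀ t, Commute π (pA t)) (hB : ∀ t, Commute π (pB t)) :
    ∃ a b, π = pA a * pB b := by
  have ap : ∀ {σ : S8}, Commute π σ → ∀ i, π (σ i) = σ (π i) := fun {σ} c i => by
    rw [← Equiv.Perm.mul_apply, c.eq, Equiv.Perm.mul_apply]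
  obtain ⟨a, ha⟩ := (by decide : ∀ i, pB 1 i = i → ∃ a, i = pA a 0) (π 0) (ap (hB 1) 0).symm
  obtain ⟨b, hb⟩ := (by decide : ∀ i, pA 1 i = i → ∃ b, i = pB b 4) (π 4) (ap (hA 1) 4).symm
  refine ⟨a, b, Equiv.ext fun i => ?_⟩
  obtain ⟨t, rfl | rfl⟩ := (by decide : ∀ i : Fin 8, ∃ t, i = pA t 0 ∨ i = pB t 4) i
  · rw [ap (hA t), ha]
    exact (by decide +kernel : ∀ a b t, pA t (pA a 0) = (pA a * pB b) (pA t 0)) a b t
  · rw [ap (hB t), hb]
    exact (by decide +kernel : ∀ a b t, pB t (pB b 4) = (pA a * pB b) (pB t 4)) a b t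

theorem pAB_inj {a b a' b' : F} (h : pA a * pB b = pA a' * pB b') : a = a' ∧ b = b' := by
  revert a b a' b'; decide +kernel

theorem card_evn : Nat.card {π : S8 // Evn π} = 20160 := by
  have : Nat.card {π : S8 // Evn π} = Nat.card (alternatingGroup (Fin 8)) :=
    Nat.card_congr (Equiv.subtypeEquivRight fun π => Equiv.Perm.mem_alternatingGroup.symm)
  rw [this, nat_card_alternatingGroup]
  simp [Nat.factorial]

theorem fix_q6 {v : V6} (h : sg v = v) : q6 v = 0 ∨ q6 v = 1 := sq01 _ (by rw [← q6_sg, h])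

theorem fix_b6 {v w : V6} (h : sg v = v) (h' : sg w = w) : b6 v w = 0 ∨ b6 v w = 1 :=
  sq01 _ (by rw [← b6_sg, h, h'])

theorem b6_fix {v : V6} (h : ∀ w, sg w = w → b6 v w = 0) : v = 0 := by
  refine b6_nd fun w => ?_
  have u : sg (w + sg w) = w + sg w := by rw [sg_add, sg_sg, add_comm]
  have r : sg (w + ω • (w + sg w)) = w + ω • (w + sg w) := by
    rw [sg_add, sg_smul, u, (by decide : ω * ω = 1 + ω), add_smul, one_smul, ← add_assoc, ← add_assoc,
      add_right_comm (sg w), two6, zero_add]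
  have e : w = (w + ω • (w + sg w)) + ω • (w + sg w) := by rw [add_assoc, two6, add_zero]
  rw [e, b6_comm, b6_add, b6_smul, b6_comm, h _ r, b6_comm, h _ u, mul_zero, add_zero]

theorem free_sg {v : V6} (h : sg v = v) : ∃ w, v = w + sg w :=
  ⟨ω • v, by rw [sg_smul, h, ← add_smul, (by decide : ω + ω * ω = 1), one_smul]⟩

/-- the rational vectors are spanned by sixteen images of the first basis vector -/
theorem rat_span (M : AddSubgroup V6) (h : ∀ t μ, pm (pA t * pB μ) ((1, 0, 0, 0), 0, 0) ∈ M) {v : V6}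
    (hv : sg v = v) : v ∈ M := by
  have k : ∀ (b : Bool) (t μ : F) (x : V6), pm (pA t * pB μ) ((1, 0, 0, 0), 0, 0) = x → cond b x 0 ∈ M :=
    fun b t μ x e => by
      cases b
      · exact M.zero_mem
      · exact e ▸ h t μ
  obtain ⟨a, b, c, d, e, f, r⟩ := (by decide +kernel : ∀ v : V6, sg v = v → ∃ a b c d e f : Bool,
    v = cond a ((1, 0, 0, 0), 0, 0) 0 + cond b ((1, 1, 1, 1), 0, 0) 0 +
      cond c ((1, ω, ω * ω, 1), 0, 0) 0 + cond d ((1, ω * ω, ω, 1), 0, 0) 0 +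
      cond e ((1, 0, 0, 1), 1, 1) 0 + cond f ((1, 0, 0, 1), ω * ω, ω) 0) v hv
  rw [r]
  exact M.add_mem (M.add_mem (M.add_mem (M.add_mem (M.add_mem (k a 0 0 _ (by decide +kernel))
    (k b 1 0 _ (by decide +kernel))) (k c ω 0 _ (by decide +kernel)))
    (k d (ω * ω) 0 _ (by decide +kernel))) (k e 0 1 _ (by decide +kernel)))
    (k f 0 ω _ (by decide +kernel))

theorem norm_word {k : F} (h0 : k ≠ 0) (h1 : k ≠ 1) : ∃ μ ν x ρ, ρ ≠ 0 ∧
    up sw (f1 k ν (up sw (f1 k μ ((1, 0, 0, 0), 0, 0)))) = ((0, 0, 0, x), ρ, 0) := by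
  revert k; decide +kernel

theorem cover (M : AddSubgroup V6) (hM : ∀ v ∈ M, ¬ DV v)
    (tr : ∀ v w, v ∉ M → w ∉ M → ∃ π, (∀ m ∈ M, pm π m ∈ M) ∧ pm π v + w ∈ M)
    (inn : ∀ v w, v ∉ M → w ∉ M → ∃ m ∈ M, ∀ m' ∈ M, b6 (v + w + m) m' = 0) : False := by
  have s1 : ∀ u : V6, ∃ m ∈ M, ∀ m' ∈ M, b6 (u + m) m' = 0 := fun u => by
    have k : ∀ r : V6, DV r → u + r ∉ M → ∃ m ∈ M, ∀ m' ∈ M, b6 (u + m) m' = 0 := fun r d n => by
      have := inn (u + r) r n fun c => hM _ c d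
      rwa [add_assoc u r r, two6, add_zero] at this
    by_cases a : u + (0, 1, 0) ∈ M
    · refine k (0, ω, 0) (by decide) fun b => hM _ (M.add_mem a b) ?_
      rw [add_add_add_comm, two6, zero_add]; decide
    · exact k _ (by decide) a
  have s0 : ∀ p : V6, (∀ m' ∈ M, b6 p m' = 0) → (∀ p', (∀ m' ∈ M, b6 p' m' = 0) → b6 p' p = 0) → p = 0 :=
    fun p hp h => b6_nd fun u => by
      obtain ⟨m, hm, e⟩ := s1 u
      have : u = (u + m) + m := by rw [add_assoc, two6, add_zero]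
      rw [this, b6_comm, b6_add, h _ e, b6_comm, hp m hm, add_zero]
  have s2 : ∀ p ∈ M, (∀ m' ∈ M, b6 p m' = 0) → p = 0 := fun p hp h => s0 p h fun p' h' => h' p hp
  have s3 : ∀ p : V6, (∀ m' ∈ M, b6 p m' = 0) → q6 p = 0 := fun p hp => by
    by_cases p0 : p = 0
    · rw [p0]; decide
    have hw : ∀ m' ∈ M, b6 (ω • p) m' = 0 := fun m' h => by rw [b6_smul, hp m' h, mul_zero]
    obtain ⟨π, h1, h2⟩ := tr p (ω • p) (fun c => p0 (s2 p c hp))
      fun c => smul_ne_zero (by decide) p0 (s2 _ c hw)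
    have sj : Function.Surjective fun m : M => (⟨pm π m, h1 _ m.2⟩ : M) :=
      Finite.surjective_of_injective fun a b c => Subtype.ext (pm_injective π (congrArg Subtype.val c))
    have := s2 _ h2 fun m' hm' => by
      obtain ⟨m, e⟩ := sj ⟨m', hm'⟩
      rw [b6_add, hw m' hm', add_zero, ← show pm π m = m' from congrArg Subtype.val e, b6_pm, hp _ m.2]
    have e : pm π p = ω • p := by rw [← add_zero (pm π p), ← two6 (ω • p), ← add_assoc, this, zero_add]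
    have q := q6_pm π p
    rw [e, q6_smul] at q
    exact (by decide : ∀ x : F, ω * ω * x = x → x = 0) _ q
  obtain ⟨m, hm, e⟩ := s1 (0, 1, 0)
  have := s0 _ e fun p' h' => by
    rw [b6_q6, s3 _ e, s3 _ h', s3 _ fun m' h => by rw [b6_add, h' m' h, e m' h, add_zero]]; rfl
  have e2 : m = (0, 1, 0) := by
    rw [← zero_add m, ← two6 (0, 1, 0), add_assoc, this, add_zero]
  exact hM _ hm (by rw [e2]; decide)

end Cfsg.Agent.LG
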