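import Cfsg.Agent.LG.Defs
import Cfsg.Agent.H40.MatW
import Cfsg.Agent.S1055
import Cfsg.Agent.S1059

/-! Project LG: identities in `G₂(4)`. -/

set_option autoImplicit false

namespace Cfsg.Agent.LG

open Subgroup H29
open scoped commutatorElement

namespace M1

open Cfsg.Lie Cfsg.Agent.H37 Cfsg.Agent.H40

/-- the relation structure -/
noncomputable abbrev S : StRel chevG2 F (GL chevG2.Idx F) := matRel isChev_G2 F

/-- product of a word -/
noncomputable def gw (w : List (Fin 12 × F)) : P := (w.map fun p => xr p.1 p.2).prod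

theorem gw_nil : gw [] = 1 := rfl

theorem gw_cons (r : Fin 12) (t : F) (w : List (Fin 12 × F)) : gw ((r, t) :: w) = xr r t * gw w := by
  simp [gw]

theorem coe_gw (w : List (Fin 12 × F)) :
    (gw w : GL chevG2.Idx F) = gword S.x (w.map fun p => (p.1.1, p.2)) := by
  induction w with
  | nil => rfl
  | cons p w ih => rw [gw_cons, coe_mul, ih, List.map_cons, gword_cons]; rfl

/-- forget the bounds -/
def un (w : List (Fin 12 × PE)) : List (ℕ × PE) := w.map fun p => (p.1.1, p.2)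

theorem chk (w w' : List (Fin 12 × PE)) (e : wcheck chevG2 2 (un w) (un w') = true) (l : List F) :
    gw (w.map fun p => (p.1, p.2.eval l)) = gw (w'.map fun p => (p.1, p.2.eval l)) := by
  refine Subtype.ext ?_
  have := gword_eq_of_check isChev_G2 (F := F) (p := 2) (by decide) e l
  simpa only [coe_gw, un, evW, List.map_map, Function.comp_def] using this

instance instAddPE : Add PE := ⟨PE.add⟩
instance instMulPE : Mul PE := ⟨PE.mul⟩

/-- the word of `tt` -/
def TT (a b c d e : PE) : List (Fin 12 × PE) := [(6, a), (8, b), (9, c), (10, d), (11, e)]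

/-- the word of `na`, `nb` -/
def NN (r s : Fin 12) : List (Fin 12 × PE) := [(r, .one), (s, .one), (r, .one)]

end M1

open M1 Cfsg.Lie Cfsg.Agent.H37 Cfsg.Agent.H40 in
theorem xr_add (r : Fin 12) (s t : F) : xr r (s + t) = xr r s * xr r t :=
  Subtype.ext (S.x_add r r.2 s t).symm

theorem xr_zero (r : Fin 12) : xr r 0 = 1 := by
  have := xr_add r 0 0
  rwa [add_zero, left_eq_mul] at this

theorem xr_sq (r : Fin 12) (t : F) : xr r t * xr r t = 1 := by
  rw [← xr_add, (by decide : ∀ t : F, t + t = 0) t, xr_zero]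

theorem xr_inv (r : Fin 12) (t : F) : (xr r t)⁻¹ = xr r t := inv_eq_of_mul_eq_one_right (xr_sq r t)

section
open M1 Cfsg.Agent.H40 PE

theorem tt_mul (v w : V4) (c d : F) : tt v c * tt w d = tt (v + w) (c + d + be v w) := by
  have := chk (TT (var 0) (var 1) (var 2) (var 3) (var 4) ++ TT (var 5) (var 6) (var 7) (var 8) (var 9))
    (TT (var 0 + var 5) (var 1 + var 6) (var 2 + var 7) (var 3 + var 8)
      (var 4 + var 9 + (var 3 * var 5 + var 2 * var 6))) (by decide +kernel)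
    [v.1, v.2.1, v.2.2.1, v.2.2.2, c, w.1, w.2.1, w.2.2.1, w.2.2.2, d]
  simp only [TT, List.cons_append, List.nil_append, List.map_cons, List.map_nil, gw_cons, gw_nil, mul_one,
    ← mul_assoc] at this
  simp only [tt, ← mul_assoc]
  exact this

theorem tt_zero : tt 0 0 = 1 := by simp [tt, xr_zero]

theorem tt_Z (c : F) : tt 0 c = xr 11 c := by simp [tt, xr_zero]

theorem tt_6 (a : F) : tt (a, 0, 0, 0) 0 = xr 6 a := by simp [tt, xr_zero]

theorem tt_8 (a : F) : tt (0, a, 0, 0) 0 = xr 8 a := by simp [tt, xr_zero]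

theorem tt_9 (a : F) : tt (0, 0, a, 0) 0 = xr 9 a := by simp [tt, xr_zero]

theorem tt_10 (a : F) : tt (0, 0, 0, a) 0 = xr 10 a := by simp [tt, xr_zero]

theorem tt_sq (v : V4) (c : F) : tt v c * tt v c = xr 11 (q4 v) := by
  rw [tt_mul, (by decide +kernel : ∀ v : V4, v + v = 0) v, tt_Z,
    (by decide +kernel : ∀ (v : V4) (c : F), c + c + be v v = q4 v) v c]

theorem tt_inv (v : V4) (c : F) : (tt v c)⁻¹ = tt v (c + q4 v) := by
  refine inv_eq_of_mul_eq_one_right ?_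
  rw [tt_mul, (by decide +kernel : ∀ v : V4, v + v = 0) v,
    (by decide +kernel : ∀ (v : V4) (c : F), c + (c + q4 v) + be v v = 0) v c, tt_zero]

theorem tt_conj (v w : V4) (c d : F) : tt v c * tt w d * (tt v c)⁻¹ = tt w (d + b4 v w) := by
  rw [mul_inv_eq_iff_eq_mul, tt_mul, tt_mul, add_comm w v]
  congr 1
  have h2 : (2 : F) = 0 := by decide
  simp only [be, b4]
  linear_combination (-(w.1 * v.2.2.2) - w.2.1 * v.2.2.1 + (v.2.2.2 * w.1 + v.2.2.1 * w.2.1) -
    (v.1 * w.2.2.2 + v.2.1 * w.2.2.1)) * h2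

theorem x7_tt (t : F) (v : V4) (c : F) : xr 7 t * tt v c * (xr 7 t)⁻¹ = tt (ra t v) (c + ka t v) := by
  have := chk ([(7, var 5)] ++ TT (var 0) (var 1) (var 2) (var 3) (var 4) ++ [(7, var 5)])
    (TT (var 0) (var 1 + var 5 * var 0) (var 2 + var 5 * var 5 * var 0)
      (var 3 + var 5 * var 5 * var 5 * var 0 + var 5 * var 5 * var 1 + var 5 * var 2)
      (var 4 + (var 5 * var 5 * var 5 * (var 0 * var 0) + var 5 * (var 1 * var 1) +
        var 5 * var 5 * (var 0 * var 1)))) (by decide +kernel)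
    [v.1, v.2.1, v.2.2.1, v.2.2.2, c, t]
  simp only [TT, List.cons_append, List.nil_append, List.map_cons, List.map_nil, gw_cons, gw_nil, mul_one,
    ← mul_assoc] at this
  simp only [tt, xr_inv, ← mul_assoc]
  exact this

theorem uu_zero (v : V4) (c : F) : uu 0 v c = tt v c := by rw [uu, xr_zero, one_mul]

theorem uu_7 (t : F) : uu t 0 0 = xr 7 t := by rw [uu, tt_zero, mul_one]

theorem uu_mul (t s : F) (v w : V4) (c d : F) :
    uu t v c * uu s w d = uu (t + s) (ra s v + w) (c + ka s v + d + be (ra s v) w) := by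
  rw [uu, uu, uu, ← tt_mul, ← x7_tt, xr_add, xr_inv]
  calc _ = xr 7 t * (xr 7 s * xr 7 s) * tt v c * xr 7 s * tt w d := by rw [xr_sq]; group
    _ = _ := by group

theorem uu_inj {t t' : F} {v v' : V4} {c c' : F} (h : uu t v c = uu t' v' c') :
    t = t' ∧ v = v' ∧ c = c' := by
  obtain ⟨_⟩ := H37.nonempty_chev isChev_G2
  have k : ∀ (t : F) (v : V4) (c : F), uu t v c =
      gw [(7, t), (6, v.1), (8, v.2.1), (9, v.2.2.1), (10, v.2.2.2), (11, c)] := fun t v c => by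
    simp only [uu, tt, gw_cons, gw_nil, mul_one, mul_assoc]
  rw [k, k] at h
  have := congrArg Subtype.val h
  rw [coe_gw, coe_gw] at this
  simp only [List.map_cons, List.map_nil] at this
  have := nf_inj isChev_G2 (by rfl) (by simp only [List.map_cons, List.map_nil]; decide)
    (by simp only [List.map_cons, List.map_nil]; decide +kernel)
    (.inl (by simp only [List.map_cons, List.map_nil]; decide +kernel)) this
  simp only [List.cons.injEq, Prod.mk.injEq, true_and, and_true] at this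
  obtain ⟨h1, h2, h3, h4, h5, h6⟩ := this
  exact ⟨h1, Prod.ext h2 (Prod.ext h3 (Prod.ext h4 h5)), h6⟩

theorem tt_inj {v v' : V4} {c c' : F} (h : tt v c = tt v' c') : v = v' ∧ c = c' :=
  (uu_inj ((uu_zero v c).trans (h.trans (uu_zero v' c').symm))).2

theorem z_ne {c : F} (h : c ≠ 0) : xr 11 c ≠ 1 := fun e =>
  h (tt_inj ((tt_Z c).trans (e.trans tt_zero.symm))).2

theorem na_xr (r : Fin 12) (t : F) :
    na * xr r t * na⁻¹ = xr (![0, 5, 3, 2, 7, 1, 10, 4, 9, 8, 6, 11] r) t := by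
  have := chk (NN 7 4 ++ [(r, var 0)]) ([(![0, 5, 3, 2, 7, 1, 10, 4, 9, 8, 6, 11] r, var 0)] ++ NN 7 4)
    (by revert r; decide +kernel) [t]
  simp only [NN, List.cons_append, List.nil_append, List.map_cons, List.map_nil, gw_cons, gw_nil, mul_one,
    ← mul_assoc] at this
  simp only [mul_inv_eq_iff_eq_mul, na, ← mul_assoc]
  exact this

theorem nb_xr (r : Fin 12) (t : F) :
    nb * xr r t * nb⁻¹ = xr (![1, 0, 2, 4, 3, 6, 5, 8, 7, 9, 11, 10] r) t := by
  have := chk (NN 6 5 ++ [(r, var 0)]) ([(![1, 0, 2, 4, 3, 6, 5, 8, 7, 9, 11, 10] r, var 0)] ++ NN 6 5)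
    (by revert r; decide +kernel) [t]
  simp only [NN, List.cons_append, List.nil_append, List.map_cons, List.map_nil, gw_cons, gw_nil, mul_one,
    ← mul_assoc] at this
  simp only [mul_inv_eq_iff_eq_mul, nb, ← mul_assoc]
  exact this

end

section
open M1 Cfsg.Lie Cfsg.Agent.H37 Cfsg.Agent.H40

theorem hh_xr (r : Fin 12) (t : F) : hh * xr r t * hh⁻¹ =
    xr r (![ω, ω * ω, ω * ω, ω * ω, 1, ω * ω, ω, 1, ω, ω, ω, ω * ω] r * t) := by
  obtain ⟨_⟩ := nonempty_chev isChev_G2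
  have e : (hh : GL chevG2.Idx F) = S.h 11 ω := by rw [h_def, n_def, n_def]; rfl
  have := h_conj S (r := 11) (s := r) (by decide +kernel) r.2 (t := ω) (by decide) t
  rw [(by decide +kernel : ∀ r : Fin 12, ω ^ chevG2.pairing 11 r =
    ![ω, ω * ω, ω * ω, ω * ω, 1, ω * ω, ω, 1, ω, ω, ω, ω * ω] r) r, ← e] at this
  exact Subtype.ext this

theorem h2_xr (r : Fin 12) (t : F) : h2 * xr r t * h2⁻¹ =
    xr r (![1, 1, ω, ω * ω, ω * ω, 1, 1, ω, ω, ω * ω, 1, 1] r * t) := by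
  obtain ⟨_⟩ := nonempty_chev isChev_G2
  have e : (h2 : GL chevG2.Idx F) = S.h 7 (ω * ω) := by rw [h_def, n_def, n_def]; rfl
  have := h_conj S (r := 7) (s := r) (by decide +kernel) r.2 (t := ω * ω) (by decide) t
  rw [(by decide +kernel : ∀ r : Fin 12, (ω * ω) ^ chevG2.pairing 7 r =
    ![1, 1, ω, ω * ω, ω * ω, 1, 1, ω, ω, ω * ω, 1, 1] r) r, ← e] at this
  exact Subtype.ext this

end

theorem fr_xr (r : Fin 12) (t : F) : fr (xr r t) = xr r (t * t) := exists_fr.choose_spec r t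

theorem simple_P : IsSimpleGroup P := (S1055.result ⟨ω, by decide, by decide⟩).1

theorem ncomm_P : ¬ IsMulCommutative P := (S1055.result ⟨ω, by decide, by decide⟩).2

theorem card_P : Nat.card P = 251596800 := (S1059.result F4.card_eq).trans (by norm_num)

namespace M1

open Cfsg.Lie Cfsg.Agent.H37 Cfsg.Agent.H40

theorem gen (H : Subgroup P) (h : ∀ r t, xr r t ∈ H) : H = ⊤ := by
  refine eq_top_iff.2 fun g _ => ?_
  have : (g : GL chevG2.Idx F) ∈ H.map (chevG2.group F).subtype :=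
    group_ind isChev_G2 (p := fun g => g ∈ H.map (chevG2.group F).subtype) (one_mem _)
      (fun _ _ => mul_mem) (fun r hr t => ⟨_, h ⟨r, hr⟩ t, rfl⟩) g.2
  exact (mem_map_iff_mem (subtype_injective _)).1 this

/-- `g` permutes the root subgroups -/
def Ac (g : P) (π : Fin 12 → Fin 12) (c : Fin 12 → F) : Prop :=
  ∀ r t, g * xr r t * g⁻¹ = xr (π r) (c r * t)

theorem Ac.mul {g g' : P} {π π' : Fin 12 → Fin 12} {c c' : Fin 12 → F} (h : Ac g π c) (h' : Ac g' π' c') :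
    Ac (g * g') (fun r => π (π' r)) (fun r => c (π' r) * c' r) := fun r t => by
  rw [mul_assoc (c _), ← h, ← h']; group

theorem Ac.one : Ac 1 id fun _ => 1 := fun r t => by simp

theorem Ac.eq {g g' : P} {π π' : Fin 12 → Fin 12} {c c' : Fin 12 → F} (h : Ac g π c) (h' : Ac g' π' c')
    (e : ∀ r, π r = π' r ∧ c r = c' r) : g = g' := by
  have := simple_P
  have k : g'⁻¹ * g ∈ center P := by
    rw [← centralizer_univ, ← coe_top, ← gen (centralizer {g'⁻¹ * g}) fun r t => ?_]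
    · exact fun x hx => (hx _ rfl).symm
    rintro _ rfl
    have := h r t
    rw [(e r).1, (e r).2, ← h'] at this
    calc _ = g'⁻¹ * (g * xr r t * g⁻¹) * g := by group
      _ = _ := by rw [this]; group
  rcases this.eq_bot_or_eq_top_of_normal (center P) inferInstance with z | z
  · rw [z, mem_bot, inv_mul_eq_one] at k; exact k.symm
  · exact absurd ⟨⟨fun a b => (mem_center_iff.1 (z ▸ mem_top b : b ∈ center P) a)⟩⟩ ncomm_P

theorem aA : Ac na ![0, 5, 3, 2, 7, 1, 10, 4, 9, 8, 6, 11] fun _ => 1 := fun r t => by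
  rw [one_mul, na_xr]

theorem aB : Ac nb ![1, 0, 2, 4, 3, 6, 5, 8, 7, 9, 11, 10] fun _ => 1 := fun r t => by
  rw [one_mul, nb_xr]

theorem aH : Ac hh id ![ω, ω * ω, ω * ω, ω * ω, 1, ω * ω, ω, 1, ω, ω, ω, ω * ω] := hh_xr

theorem a2 : Ac h2 id ![1, 1, ω, ω * ω, ω * ω, 1, 1, ω, ω, ω * ω, 1, 1] := h2_xr

theorem Ac.fr {g : P} {π : Fin 12 → Fin 12} {c : Fin 12 → F} (h : Ac g π c) :
    Ac (fr g) π fun r => c r * c r := fun r t => by
  obtain ⟨s, rfl⟩ := (by decide : ∀ t : F, ∃ s, s * s = t) t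
  rw [← fr_xr, ← map_inv, ← map_mul, ← map_mul, h, fr_xr, mul_mul_mul_comm]

theorem cj_tt (g : P) (v : V4) (c : F) : g * tt v c * g⁻¹ = g * xr 6 v.1 * g⁻¹ * (g * xr 8 v.2.1 * g⁻¹) *
    (g * xr 9 v.2.2.1 * g⁻¹) * (g * xr 10 v.2.2.2 * g⁻¹) * (g * xr 11 c * g⁻¹) := by
  rw [tt]; group

end M1

open M1

theorem na_tt (v : V4) (c : F) : na * tt v c * na⁻¹ = tt (sw v) (c + q4 v) := by
  rw [cj_tt, na_xr, na_xr, na_xr, na_xr, na_xr]
  change xr 10 _ * xr 9 _ * xr 8 _ * xr 6 _ * xr 11 _ = _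
  rw [← tt_10, ← tt_9, ← tt_8, ← tt_6, ← tt_Z, tt_mul, tt_mul, tt_mul, tt_mul]
  congr 1
  · simp [sw]
  · simp [be, q4, add_comm]

theorem hh_tt (v : V4) (c : F) : hh * tt v c * hh⁻¹ = tt (ω • v) (ω * ω * c) := by
  rw [cj_tt, hh_xr, hh_xr, hh_xr, hh_xr, hh_xr]; rfl

theorem h2_tt (v : V4) (c : F) : h2 * tt v c * h2⁻¹ = tt (rh v) c := by
  rw [cj_tt, h2_xr, h2_xr, h2_xr, h2_xr, h2_xr]
  change xr 6 (1 * _) * _ * _ * xr 10 (1 * _) * xr 11 (1 * _) = _
  rw [one_mul, one_mul, one_mul]; rfl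

theorem fr_tt (v : V4) (c : F) : fr (tt v c) = tt (fb v) (c * c) := by
  simp only [tt, map_mul, fr_xr, fb]

theorem na_sq : na * na = 1 := (aA.mul aA).eq Ac.one (by decide +kernel)

theorem nb_sq : nb * nb = 1 := (aB.mul aB).eq Ac.one (by decide +kernel)

theorem hh_cube : hh * hh * hh = 1 := ((aH.mul aH).mul aH).eq Ac.one (by decide +kernel)

theorem h2_cube : h2 * h2 * h2 = 1 := ((a2.mul a2).mul a2).eq Ac.one (by decide +kernel)

theorem hh_h2 : Commute hh h2 := (aH.mul a2).eq (a2.mul aH) (by decide +kernel)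

theorem hh_na : Commute hh na := (aH.mul aA).eq (aA.mul aH) (by decide +kernel)

theorem h2_nb : Commute h2 nb := (a2.mul aB).eq (aB.mul a2) (by decide +kernel)

theorem na_h2 : na * h2 * na⁻¹ = h2⁻¹ := by
  rw [mul_inv_eq_iff_eq_mul, eq_inv_mul_iff_mul_eq]
  exact (a2.mul (aA.mul a2)).eq aA (by decide +kernel)

theorem nb_hh : nb * hh * nb⁻¹ = hh⁻¹ * h2 := by
  rw [mul_inv_eq_iff_eq_mul, mul_assoc, eq_inv_mul_iff_mul_eq]
  exact (aH.mul (aB.mul aH)).eq (a2.mul aB) (by decide +kernel)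

theorem fr_fr : fr * fr = 1 := by
  have := gen (MonoidHom.eqLocus (fr * fr).toMonoidHom (MonoidHom.id P)) fun r t => by
    change fr (fr (xr r t)) = xr r t
    rw [fr_xr, fr_xr, (by decide : ∀ t : F, t * t * (t * t) = t) t]
  refine MulEquiv.ext fun g => ?_
  have h := mem_top g
  rw [← this] at h
  exact h

theorem fr_na : fr na = na := by simp only [na, map_mul, fr_xr, mul_one]

theorem fr_nb : fr nb = nb := by simp only [nb, map_mul, fr_xr, mul_one]

theorem fr_hh : fr hh = hh⁻¹ :=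
  eq_inv_of_mul_eq_one_left ((aH.fr.mul aH).eq Ac.one (by decide +kernel))

theorem fr_h2 : fr h2 = h2⁻¹ :=
  eq_inv_of_mul_eq_one_left ((a2.fr.mul a2).eq Ac.one (by decide +kernel))

theorem x4_eq {c : F} (hc : c ≠ 0) : ∃ i : ℕ, xr 4 c = xr 7 (c * c) * h2 ^ i * na * xr 7 (c * c) := by
  have k : ∀ c : F, xr 4 c = xr 7 (c * c) * (xr 7 (c * c) * xr 4 c * xr 7 (c * c)) * xr 7 (c * c) :=
    fun c => by rw [← mul_assoc, ← mul_assoc, xr_sq, one_mul, mul_assoc, xr_sq, mul_one]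
  have kω : xr 4 ω = xr 7 (ω * ω) * h2 * na * xr 7 (ω * ω) := by
    rw [k ω, h2, mul_assoc (xr 7 (ω * ω)) _ na, mul_assoc _ na na, na_sq, mul_one]
  rcases (by decide : ∀ c : F, c ≠ 0 → c = 1 ∨ c = ω ∨ c = ω * ω) c hc with rfl | rfl | rfl
  · exact ⟨0, by rw [k 1, pow_zero, mul_one, mul_one, na]⟩
  · exact ⟨1, by rw [pow_one, kω]⟩
  · refine ⟨2, ?_⟩
    have := congrArg fr kω
    rw [map_mul, map_mul, map_mul, fr_xr, fr_xr, fr_h2, fr_na, inv_eq_of_mul_eq_one_left h2_cube] at this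
    rw [this, pow_two]

theorem ord_65 : orderOf (xr 6 1 * xr 5 1) = 3 := by
  have : Fact (Nat.Prime 3) := ⟨Nat.prime_three⟩
  have e := nb_xr 6 1
  change _ = xr 5 1 at e
  rw [inv_eq_of_mul_eq_one_right nb_sq] at e
  refine orderOf_eq_prime ?_ fun h => ?_
  · calc _ = xr 6 1 * xr 5 1 * (xr 6 1 * xr 6 1) * xr 6 1 * xr 5 1 * xr 6 1 * xr 5 1 := by
          rw [xr_sq]; simp only [pow_succ, pow_zero, one_mul, mul_one, mul_assoc]
      _ = nb * xr 6 1 * nb * xr 5 1 := by simp only [nb, mul_assoc]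
      _ = 1 := by rw [e, xr_sq]
  · have k := nb_xr 10 1
    change _ = xr 11 1 at k
    rw [nb, h, one_mul, ← tt_6, ← tt_10, ← tt_Z, tt_conj] at k
    exact absurd (tt_inj k).1 (by decide)

theorem gen_P (H : Subgroup P) (h4 : ∀ t, xr 4 t ∈ H) (h5 : ∀ t, xr 5 t ∈ H) (h6 : ∀ t, xr 6 t ∈ H)
    (h7 : ∀ t, xr 7 t ∈ H) : H = ⊤ := by
  have ha : na ∈ H := mul_mem (mul_mem (h7 1) (h4 1)) (h7 1)
  have hb : nb ∈ H := mul_mem (mul_mem (h6 1) (h5 1)) (h6 1)
  have a : ∀ r, (∀ t, xr r t ∈ H) → ∀ t, xr (![0, 5, 3, 2, 7, 1, 10, 4, 9, 8, 6, 11] r) t ∈ H :=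
    fun r h t => na_xr r t ▸ mul_mem (mul_mem ha (h t)) (inv_mem ha)
  have b : ∀ r, (∀ t, xr r t ∈ H) → ∀ t, xr (![1, 0, 2, 4, 3, 6, 5, 8, 7, 9, 11, 10] r) t ∈ H :=
    fun r h t => nb_xr r t ▸ mul_mem (mul_mem hb (h t)) (inv_mem hb)
  refine gen H fun r => ?_
  fin_cases r
  exacts [b 1 (a 5 h5), a 5 h5, a 3 (b 4 h4), b 4 h4, h4, h5, h6, h7, b 7 h7, a 8 (b 7 h7), a 6 h6,
    b 10 (a 6 h6)]

end Cfsg.Agent.LG
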