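import Cfsg.Agent.LG.Mod1
import Cfsg.Agent.LG.Maps
import Mathlib.LinearAlgebra.BilinearForm.Orthogonal
import Mathlib.FieldTheory.Finiteness

/-! Project LG: subgroups of the Sylow 2-subgroup `U` of `G₂(4)` (notes/LG.md, section UF). -/

set_option autoImplicit false
set_option synthInstance.maxSize 1024

namespace Cfsg.Agent.LG

open Subgroup H29
open scoped commutatorElement

theorem InU.mul {p q : P} (h : InU p) (h' : InU q) : InU (p * q) := by
  obtain ⟨t, v, c, rfl⟩ := h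
  obtain ⟨s, w, d, rfl⟩ := h'
  exact ⟨_, _, _, uu_mul ..⟩

namespace UF

theorem finP : Finite P := Nat.finite_of_card_ne_zero (by rw [card_P]; decide)

attribute [local instance] finP

theorem one_eq : (1 : P) = uu 0 0 0 := by rw [uu_zero, tt_zero]

theorem ra0 (v : V4) : ra 0 v = v := by simp [ra]

theorem ka0 (v : V4) : ka 0 v = 0 := by simp [ka]

theorem inv_U {p : P} (h : InU p) : InU p⁻¹ := by
  obtain ⟨t, v, c, rfl⟩ := h
  refine ⟨t, ra t v, c + ka t v + be (ra t v) (ra t v), inv_eq_of_mul_eq_one_right ?_⟩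
  rw [uu_mul, two, two4, one_eq]
  congr 1
  linear_combination two c + two (ka t v) + two (be (ra t v) (ra t v))

/-- the subgroup `U` -/
def Ug : Subgroup P where
  carrier := {p | InU p}
  one_mem' := ⟨_, _, _, one_eq⟩
  mul_mem' := InU.mul
  inv_mem' := inv_U

/-- the subgroup `T` -/
def Tg : Subgroup P where
  carrier := {p | InT p}
  one_mem' := ⟨_, _, tt_zero.symm⟩
  mul_mem' := by rintro _ _ ⟨v, c, rfl⟩ ⟨w, d, rfl⟩; exact ⟨_, _, tt_mul ..⟩
  inv_mem' := by rintro _ ⟨v, c, rfl⟩; exact ⟨_, _, tt_inv ..⟩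

theorem mem_T {t : F} {v : V4} {c : F} : uu t v c ∈ Tg ↔ t = 0 :=
  ⟨fun ⟨w, d, e⟩ => (uu_inj (e.trans (uu_zero w d).symm)).1, by rintro rfl; exact ⟨_, _, uu_zero ..⟩⟩

theorem cardF : Nat.card F = 4 := by rw [Nat.card_eq_fintype_card]; rfl

variable {X Y W : Subgroup P} {t s c d : F} {v w : V4}

theorem cle2 (hU : ∀ x ∈ X, InU x) (K : Subgroup P) {A : Type} [Finite A] (S : Set A) (f : F → V4 → F → A)
    (hS : ∀ t v c, uu t v c ∈ X → f t v c ∈ S)
    (h : ∀ t v c t' v' c', uu t v c ∈ X → uu t' v' c' ∈ X → f t v c = f t' v' c' →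
      (uu t v c)⁻¹ * uu t' v' c' ∈ K) : Nat.card X ≤ Nat.card S * Nat.card ↥(X ⊓ K) := by
  choose T V C e using fun x : X => hU x x.2
  rw [← (K.subgroupOf X).index_mul_card, ← inf_subgroupOf_left, Nat.card_congr (subgroupOfEquivOfLe inf_le_left).toEquiv]
  refine Nat.mul_le_mul_right _ (Nat.card_le_card_of_injective
    (fun q : X ⧸ (X ⊓ K).subgroupOf X => (⟨f _ _ _, hS _ _ _ (e q.out ▸ q.out.2)⟩ : S)) fun q q' k => ?_)
  have := h _ _ _ _ _ _ (e q.out ▸ q.out.2) (e q'.out ▸ q'.out.2) (congrArg Subtype.val k)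
  rw [← e, ← e] at this
  rw [← q.out_eq, ← q'.out_eq]
  exact QuotientGroup.eq.2 ⟨(q.out⁻¹ * q'.out).2, this⟩

theorem cle (hU : ∀ x ∈ X, InU x) {A : Type} [Finite A] (S : Set A) (f : F → V4 → F → A)
    (hS : ∀ t v c, uu t v c ∈ X → f t v c ∈ S)
    (h : ∀ t v c t' v' c', uu t v c ∈ X → uu t' v' c' ∈ X → f t v c = f t' v' c' → t = t' ∧ v = v' ∧ c = c') :
    Nat.card X ≤ Nat.card S := by
  have := cle2 hU ⊥ S f hS fun t v c t' v' c' k1 k2 k3 => by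
    obtain ⟨rfl, rfl, rfl⟩ := h _ _ _ _ _ _ k1 k2 k3
    simp
  simpa using this

theorem cle' (hU : ∀ x ∈ X, InU x) {A : Type} [Finite A] (f : F → V4 → F → A)
    (h : ∀ t v c t' v' c', uu t v c ∈ X → uu t' v' c' ∈ X → f t v c = f t' v' c' → t = t' ∧ v = v' ∧ c = c') :
    Nat.card X ≤ Nat.card A := by
  simpa using cle hU Set.univ f (fun _ _ _ _ => trivial) h

theorem all_mem {A : Type} [Finite A] (g : A → P) (h : ∀ x ∈ X, ∃ a, x = g a) (c : Nat.card A ≤ Nat.card X)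
    (a : A) : g a ∈ X := by
  have e : (X : Set P) = Set.range g := Set.eq_of_subset_of_ncard_le (fun x hx => (h x hx).imp fun _ => Eq.symm)
    ((Nat.card_le_card_of_surjective _ Set.rangeFactorization_surjective).trans c)
  exact (e.ge ⟨a, rfl⟩ : g a ∈ (X : Set P))

theorem quo (t : F) (v v' : V4) (c c' : F) : (uu t v c)⁻¹ * uu t v' c' ∈ Tg := by
  rw [show (uu t v c)⁻¹ * uu t v' c' = (tt v c)⁻¹ * tt v' c' by unfold uu; group]
  exact mul_mem (inv_mem ⟨_, _, rfl⟩) ⟨_, _, rfl⟩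

theorem c4 (hU : ∀ x ∈ X, InU x) : Nat.card X ≤ 4 * Nat.card ↥(X ⊓ Tg) := by
  have := cle2 hU Tg Set.univ (fun t _ _ => t) (fun _ _ _ _ => trivial) (by rintro t v c _ v' c' - - rfl; exact quo ..)
  rwa [Nat.card_univ, cardF] at this

theorem cm1 (h : Commute (uu t v c) (uu s w d)) : ra s v + v = ra t w + w := by
  rw [commute_iff_eq, uu_mul, uu_mul] at h
  linear_combination (uu_inj h).2.1 + two4 v - two4 w

theorem cm2 (h : Commute (uu t v c) (uu s w d)) : ka s v + be (ra s v) w = ka t w + be (ra t w) v := by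
  rw [commute_iff_eq, uu_mul, uu_mul] at h
  linear_combination (uu_inj h).2.2

theorem fixT (h : Commute (uu t v c) (uu 0 w d)) : ra t w = w := by
  linear_combination ra0 v - cm1 h + two4 v - two4 w

theorem cmT (h : Commute (uu 0 v c) (uu 0 w d)) : b4 v w = 0 := by
  have := cm2 h
  simp only [ra0, ka0, be] at this
  unfold b4
  linear_combination this + two (w.2.2.2 * v.1) + two (w.2.2.1 * v.2.1)

theorem sq1 (h : uu t v c * uu t v c = uu 0 0 d) : ra t v = v := by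
  rw [uu_mul] at h
  linear_combination (uu_inj h).2.1 - two4 v

theorem sqT (h : uu 0 v c * uu 0 v c = 1) : q4 v = 0 := by
  rw [uu_zero, tt_sq] at h
  by_contra k
  exact z_ne k h

theorem fx1 : ∀ t : F, t ≠ 0 → ∀ v : V4, ra t v = v → v.1 = 0 ∧ v.2.2.1 = t * v.2.1 := by decide +kernel

theorem ext4 (h1 : v.1 = w.1) (h2 : v.2.1 = w.2.1) (h3 : v.2.2.1 = w.2.2.1) (h4 : v.2.2.2 = w.2.2.2) : v = w :=
  Prod.ext h1 (Prod.ext h2 (Prod.ext h3 h4))

theorem cV (hU : ∀ x ∈ X, InU x) (h : ∀ t v c, uu t v c ∈ X → t = 0 ∧ v.1 = 0 ∧ v.2.1 = 0 ∧ v.2.2.1 = 0) :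
    Nat.card X ≤ 16 := by
  have := cle' hU (fun _ v c => (v.2.2.2, c)) fun t v c t' v' c' k k' e => by
    obtain ⟨a1, a2, a3, a4⟩ := h _ _ _ k
    obtain ⟨b1, b2, b3, b4⟩ := h _ _ _ k'
    exact ⟨a1.trans b1.symm, ext4 (a2.trans b2.symm) (a3.trans b3.symm) (a4.trans b4.symm) (congrArg Prod.fst e),
      congrArg Prod.snd e⟩
  rwa [Nat.card_prod, cardF] at this

theorem twoT (hX : ∀ x ∈ X, InU x) (hY : ∀ x ∈ Y, InU x) (h : ∀ x ∈ X, ∀ y ∈ Y, Commute x y) :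
    Nat.card X ≤ 2 * Nat.card ↥(X ⊓ Tg) ∨ Nat.card ↥(Y ⊓ Tg) ≤ 16 := by
  by_cases k : ∀ t v c t' v' c', uu t v c ∈ X → uu t' v' c' ∈ X → t ≠ 0 → t' ≠ 0 → t = t'
  · have := cle2 hX Tg Set.univ (fun t _ _ => decide (t = 0)) (fun _ _ _ _ => trivial)
      fun t v c t' v' c' k1 k2 e => by
        obtain rfl : t = t' := by
          rw [decide_eq_decide] at e
          by_cases h0 : t = 0
          exacts [h0.trans (e.1 h0).symm, k _ _ _ _ _ _ k1 k2 h0 (mt e.2 h0)]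
        exact quo ..
    exact .inl (by simpa using this)
  · push Not at k
    obtain ⟨t, v, c, t', v', c', k1, k2, n1, n2, n3⟩ := k
    refine .inr (cV (fun x hx => hY x hx.1) fun s w d hw => ?_)
    obtain rfl := mem_T.1 hw.2
    obtain ⟨a1, a2⟩ := fx1 t n1 w (fixT (h _ k1 _ hw.1))
    obtain ⟨-, a3⟩ := fx1 t' n2 w (fixT (h _ k2 _ hw.1))
    have a4 : w.2.1 = 0 := by
      by_contra a4
      exact n3 (mul_right_cancel₀ a4 (a2.symm.trans a3))
    exact ⟨rfl, a1, a4, by rw [a2, a4, mul_zero]⟩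

/-- the form `b4` -/
def B4 : LinearMap.BilinForm F V4 := LinearMap.mk₂ F b4 (fun u v w => by simp only [b4, Prod.fst_add, Prod.snd_add]; ring)
  (fun a v w => by simp only [b4, Prod.smul_fst, Prod.smul_snd, smul_eq_mul]; ring)
  (fun u v w => by simp only [b4, Prod.fst_add, Prod.snd_add]; ring)
  fun a v w => by simp only [b4, Prod.smul_fst, Prod.smul_snd, smul_eq_mul]; ring

theorem B4_nd : B4.Nondegenerate := LinearMap.BilinForm.Nondegenerate.ofSeparatingLeft fun v h =>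
  ext4 (by simpa [B4, b4] using h (0, 0, 0, 1)) (by simpa [B4, b4] using h (0, 0, 1, 0))
    (by simpa [B4, b4] using h (0, 1, 0, 0)) (by simpa [B4, b4] using h (1, 0, 0, 0))

theorem cS (hT : X ≤ Tg) (S : Submodule F V4) (h : ∀ v c, uu 0 v c ∈ X → v ∈ S) :
    Nat.card X ≤ 4 ^ Module.finrank F S * 4 := by
  have := cle (X := X) (fun x hx => (hT hx).elim fun v k => k.elim fun c e => ⟨0, v, c, e.trans (uu_zero ..).symm⟩)
    ((S : Set V4) ×ˢ (Set.univ : Set F)) (fun _ v c => (v, c))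
    (fun t v c k => by obtain rfl := mem_T.1 (hT k); exact ⟨h _ _ k, trivial⟩)
    fun t v c t' v' c' k k' e => ⟨(mem_T.1 (hT k)).trans (mem_T.1 (hT k')).symm, Prod.ext_iff.1 e⟩
  rwa [Nat.card_congr (Equiv.Set.prod _ _), Nat.card_prod, Nat.card_univ, cardF,
    show Nat.card (S : Set V4) = Nat.card S from rfl, Module.natCard_eq_pow_finrank (K := F) (V := S), cardF] at this

theorem rk4 : Module.finrank F V4 = 4 := by simp

theorem cO (hT : X ≤ Tg) (A : Set V4) (h : ∀ v c, uu 0 v c ∈ X → ∀ a ∈ A, b4 a v = 0) :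
    Nat.card X ≤ 4 ^ (4 - Module.finrank F (Submodule.span F A)) * 4 := by
  have := cS hT (B4.orthogonal (Submodule.span F A)) fun v c k =>
    (Submodule.span_le (p := LinearMap.ker (B4.flip v))).2 (h v c k)
  rwa [LinearMap.BilinForm.finrank_orthogonal B4_nd, rk4] at this

theorem TT (hX : X ≤ Tg) (hY : Y ≤ Tg) (h : ∀ x ∈ X, ∀ y ∈ Y, Commute x y) : Nat.card X * Nat.card Y ≤ 4096 := by
  have h1 := cS hX (Submodule.span F {v | ∃ c, uu 0 v c ∈ X}) fun v c k => Submodule.subset_span ⟨c, k⟩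
  have h2 := cO hY {v | ∃ c, uu 0 v c ∈ X} fun v c k a ⟨c', k'⟩ => cmT (h _ k' _ k)
  have h3 := (Submodule.span F {v | ∃ c, uu 0 v c ∈ X}).finrank_le
  rw [rk4] at h3
  refine (Nat.mul_le_mul h1 h2).trans (le_of_eq ?_)
  rw [mul_mul_mul_comm, ← pow_add, Nat.add_sub_cancel' h3]
  rfl

theorem inE (hd : d ≠ 0) (h : Commute (uu 0 (0, 0, 0, d) c) (uu s w t)) : w.1 = 0 := by
  simpa [ra, ka, be, hd] using cm2 h

theorem cE (hU : ∀ x ∈ X, InU x) (h : ∀ t v c, uu t v c ∈ X → v.1 = 0) : Nat.card X ≤ 1024 := by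
  have := cle' hU (fun t v c => (t, v.2, c)) fun t v c t' v' c' k k' e => by
    simp only [Prod.mk.injEq] at e
    exact ⟨e.1, Prod.ext ((h _ _ _ k).trans (h _ _ _ k').symm) e.2.1, e.2.2⟩
  simpa only [Nat.card_prod, cardF] using this

/-- squares in `E` -/
def sqd (t : F) (v : V4) : F × F := (t * t * v.2.1 + t * v.2.2.1, t * (v.2.1 * v.2.1) + v.2.1 * v.2.2.1)

theorem sqE (h : v.1 = 0) : uu t v c * uu t v c = uu 0 (0, 0, 0, (sqd t v).1) (sqd t v).2 := by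
  obtain ⟨a, b, e, f⟩ := v
  obtain rfl : a = 0 := h
  rw [uu_mul, two]
  congr 1
  · refine ext4 ?_ ?_ ?_ ?_ <;> simp [ra, sqd, two]
    linear_combination two f
  · simp [ra, ka, be, sqd, two]
    linear_combination two c

theorem vw (hU : ∀ x ∈ X, InU x) (cX : 512 ≤ Nat.card X) (hd : d ≠ 0)
    (h : ∀ x ∈ X, Commute (uu 0 (0, 0, 0, d) c) x) (sq : ∀ x ∈ X, x * x ∈ W) : 16 ≤ Nat.card W := by
  let B := Ug ⊓ centralizer {uu 0 (0, 0, 0, d) c}
  have le : X ≤ B := fun x hx => ⟨hU x hx, mem_centralizer_singleton_iff.2 (h x hx).symm⟩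
  have cB : Nat.card B ≤ 1024 := cE (fun x hx => hx.1) fun t v e k =>
    inE hd (Commute.symm (mem_centralizer_singleton_iff.1 k.2))
  have mB : ∀ t v e, v.1 = 0 → uu t v e ∈ B := fun t v e k => ⟨⟨_, _, _, rfl⟩, mem_centralizer_singleton_iff.2 (by
    rw [uu_mul, uu_mul, add_comm t, ra0, ka0, show ra t (0, 0, 0, d) = (0, 0, 0, d) by simp [ra], add_comm v]
    congr 1
    simp [ka, be, k, add_comm])⟩
  have tri : ∀ g ∈ B, ∀ k ∈ B, g ∈ X ∨ k ∈ X ∨ g * k ∈ X := fun g hg k hk => by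
    have e := (X.subgroupOf B).index_mul_card
    rw [Nat.card_congr (subgroupOfEquivOfLe le).toEquiv] at e
    have e1 : (X.subgroupOf B).index ≤ 2 := by nlinarith
    have e2 := (X.subgroupOf B).index_ne_zero_of_finite
    rcases (by omega : (X.subgroupOf B).index = 1 ∨ (X.subgroupOf B).index = 2) with e3 | e3
    · exact .inl ((index_eq_one.1 e3).ge (mem_top ⟨g, hg⟩))
    · by_contra n
      push Not at n
      exact n.2.2 ((mul_mem_iff_of_index_two e3 (a := ⟨g, hg⟩) (b := ⟨k, hk⟩)).2 (iff_of_false n.1 n.2.1))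
  have key : ∀ t s v u p, v.1 = 0 ∧ u.1 = 0 ∧ (ra s v + u).1 = 0 ∧ sqd t v = p ∧ sqd s u = p ∧
      sqd (t + s) (ra s v + u) = p → uu 0 (0, 0, 0, p.1) p.2 ∈ W := by
    rintro t s v u p ⟨a1, a2, a3, a4, a5, a6⟩
    rcases tri _ (mB t v 0 a1) _ (mB s u 0 a2) with k | k | k
    · exact a4 ▸ sqE a1 ▸ sq _ k
    · exact a5 ▸ sqE a2 ▸ sq _ k
    · rw [uu_mul] at k
      exact a6 ▸ sqE a3 ▸ sq _ k
  have m : ∀ p : F × F, uu 0 (0, 0, 0, p.1) p.2 ∈ W := fun ⟨δ, ε⟩ => by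
    have := mul_mem (key 1 ω (0, 0, δ, 0) (0, 0, ω * ω * δ, 0) (δ, 0) (by revert δ; decide +kernel))
      (key 0 0 (0, 1, ε, 0) (0, ω, ω * ω * ε, 0) (0, ε) (by revert ε; decide +kernel))
    simpa [uu_mul, ra, ka, be] using this
  have := Nat.card_le_card_of_injective (fun p : F × F => (⟨_, m p⟩ : W)) fun p p' e => by
    have := uu_inj (congrArg Subtype.val e)
    exact Prod.ext (by simpa using this.2.1) this.2.2
  rwa [Nat.card_prod, cardF] at this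

theorem cnt : ∀ t b c : F, ¬ (t = 0 ∧ b = 0 ∧ c = 0) → (Finset.univ.filter fun k : F × F × F =>
    k.1 * k.1 * b + k.1 * c = t * t * k.2.1 + t * k.2.2 ∧
      k.1 * (b * b) + c * k.2.1 = t * (k.2.1 * k.2.1) + k.2.2 * b).card ≤ 8 := by decide +kernel

theorem cY (hU : ∀ x ∈ X, InU x) (hE : ∀ t v c, uu t v c ∈ X → v.1 = 0) (h0 : v.1 = 0)
    (n : ¬ (t = 0 ∧ v.2.1 = 0 ∧ v.2.2.1 = 0)) (h : ∀ x ∈ X, Commute (uu t v c) x) : Nat.card X ≤ 128 := by
  have := cle hU ((Finset.univ.filter fun k : F × F × F =>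
    k.1 * k.1 * v.2.1 + k.1 * v.2.2.1 = t * t * k.2.1 + t * k.2.2 ∧
      k.1 * (v.2.1 * v.2.1) + v.2.2.1 * k.2.1 = t * (k.2.1 * k.2.1) + k.2.2 * v.2.1 : Finset _) ×ˢ
      (Set.univ : Set (F × F))) (fun s u e => ((s, u.2.1, u.2.2.1), u.2.2.2, e)) (fun s u e k => by
      have e1 := congrArg (·.2.2.2) (cm1 (h _ k))
      have e2 := cm2 (h _ k)
      simp only [ra, ka, be, h0, hE _ _ _ k, Prod.snd_add, mul_zero, zero_mul, add_zero, zero_add] at e1 e2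
      refine ⟨Finset.mem_coe.2 (Finset.mem_filter.2 ⟨Finset.mem_univ _, ?_, e2⟩), trivial⟩
      linear_combination e1 - two v.2.2.2 + two u.2.2.2)
    fun s u e s' u' e' k k' q => by
      simp only [Prod.mk.injEq] at q
      exact ⟨q.1.1, ext4 ((hE _ _ _ k).trans (hE _ _ _ k').symm) q.1.2.1 q.1.2.2 q.2.1, q.2.2⟩
  rw [Nat.card_congr (Equiv.Set.prod _ _), Nat.card_prod, Nat.card_univ, Nat.card_prod, cardF, Nat.card_coe_set_eq,
    Set.ncard_coe_finset] at this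
  have := cnt t _ _ n
  omega

end UF

open UF

attribute [local instance] finP

theorem InU.inv {p : P} (h : InU p) : InU p⁻¹ := inv_U h

theorem card_T {X : Subgroup P} (h : ∀ p, p ∈ X ↔ InT p) : Nat.card X = 1024 := by
  rw [← Nat.card_eq_of_bijective (fun p : V4 × F => (⟨tt p.1 p.2, (h _).2 ⟨_, _, rfl⟩⟩ : X))
    ⟨fun p p' e => Prod.ext_iff.2 (tt_inj (congrArg Subtype.val e)), fun x => by
      obtain ⟨v, c, e⟩ := (h x).1 x.2
      exact ⟨(v, c), Subtype.ext e.symm⟩⟩]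
  simp only [Nat.card_prod, cardF]

theorem card_le_T {X : Subgroup P} (h : ∀ p ∈ X, InT p) (c : 1024 ≤ Nat.card X) (v : V4) (d : F) :
    tt v d ∈ X :=
  all_mem (fun p : V4 × F => tt p.1 p.2) (fun x hx => let ⟨v, c, e⟩ := h x hx; ⟨(v, c), e⟩)
    (by simpa only [Nat.card_prod, cardF] using c) (v, d)

theorem uf_a {w : P} (hw : InU w) (w2 : w * w = 1) (n : ¬ InV w) {X : Subgroup P}
    (hU : ∀ x ∈ X, InU x) (c : ∀ x ∈ X, Commute x w) : Nat.card X ≤ 256 := by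
  obtain ⟨t, v, e, rfl⟩ := hw
  by_cases ht : t = 0
  · subst ht
    have n' : ¬ (v.1 = 0 ∧ v.2.1 = 0 ∧ v.2.2.1 = 0) := fun k =>
      n ⟨v.2.2.2, e, by rw [uu_zero, ext4 (w := (0, 0, 0, v.2.2.2)) k.1 k.2.1 k.2.2 rfl]⟩
    have := cO (X := X) (fun x hx => by
      obtain ⟨s, u, f, rfl⟩ := hU x hx
      exact mem_T.2 ((by decide +kernel : ∀ (s : F) (v : V4), q4 v = 0 → ¬ (v.1 = 0 ∧ v.2.1 = 0 ∧ v.2.2.1 = 0) →
        ra s v = v → s = 0) s v (sqT w2) n' (fixT (c _ hx)))) {v} (by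
      rintro u f k _ rfl
      exact cmT (c _ k).symm)
    rwa [finrank_span_singleton (by rintro rfl; exact n' ⟨rfl, rfl, rfl⟩)] at this
  · have := cle' hU (fun s u f => (s, u.2.1, u.2.2.2, f)) fun s u f s' u' f' k k' q => by
      simp only [Prod.mk.injEq] at q
      obtain ⟨rfl, q1, q2, rfl⟩ := q
      obtain ⟨a1, a2⟩ := fx1 t ht (u + u') (by
        linear_combination ra_add t u u' + cm1 (c _ k) + cm1 (c _ k') + two4 (ra s v + v) - two4 u - two4 u')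
      rw [Prod.snd_add, Prod.snd_add, Prod.fst_add, Prod.fst_add, q1, two, mul_zero] at a2
      rw [Prod.fst_add] at a1
      exact ⟨rfl, ext4 (by linear_combination a1 - two u'.1) q1 (by linear_combination a2 - two u'.2.2.1) q2, rfl⟩
    simpa only [Nat.card_prod, cardF] using this

theorem uf_a1 {X W : Subgroup P} (hU : ∀ x ∈ X, InU x) (le : W ≤ X) (cX : 128 ≤ Nat.card X)
    (cW : 64 ≤ Nat.card W) (el : ∀ w ∈ W, w * w = 1) (cen : ∀ w ∈ W, ∀ x ∈ X, Commute w x) : False := by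
  by_cases hT : X ≤ Tg
  · have := TT (le.trans hT) hT cen
    nlinarith
  obtain ⟨x, hx, n⟩ := SetLike.not_le_iff_exists.1 hT
  obtain ⟨t, v, c, rfl⟩ := hU x hx
  have h1 : Nat.card ↥(W ⊓ Tg) ≤ 16 := cV (fun x hx => hU x (le hx.1)) fun s w d k => by
    obtain rfl := mem_T.1 k.2
    exact ⟨rfl, (by decide +kernel : ∀ t : F, t ≠ 0 → ∀ w : V4, ra t w = w → q4 w = 0 →
      w.1 = 0 ∧ w.2.1 = 0 ∧ w.2.2.1 = 0) t (mt mem_T.2 n) w (fixT (cen _ k.1 _ hx).symm) (sqT (el _ k.1))⟩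
  have h2 := c4 hU
  rcases twoT (fun x hx => hU x (le hx)) hU cen with k | k <;> omega

theorem UF.de {X W : Subgroup P} (hU : ∀ x ∈ X, InU x) (le : W ≤ X) (cX : 512 ≤ Nat.card X)
    (c1 : 4 ≤ Nat.card W) (c2 : Nat.card W ≤ 8) (el : ∀ w ∈ W, w * w = 1) (cen : ∀ w ∈ W, ∀ x ∈ X, Commute w x)
    (sq : ∀ x ∈ X, x * x ∈ W) : (∀ w, w ∈ W ↔ InZ w) ∧ ∀ x ∈ X, InT x := by
  have hZ : ∀ w ∈ W, InZ w := fun w hw => by
    obtain ⟨d, e, rfl⟩ : InV w := by
      by_contra n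
      have := uf_a (hU w (le hw)) (el w hw) n hU fun x hx => (cen w hw x hx).symm
      omega
    by_cases hd : d = 0
    · exact ⟨e, by rw [hd]; exact tt_Z e⟩
    · have := vw hU cX hd (fun x hx => uu_zero (0, 0, 0, d) e ▸ cen _ hw x hx) sq
      omega
  refine ⟨fun w => ⟨hZ w, ?_⟩, fun x hx => ?_⟩
  · rintro ⟨c, rfl⟩
    exact all_mem (xr 11) hZ (cardF ▸ c1) c
  obtain ⟨t, v, c, rfl⟩ := hU x hx
  by_contra n
  have ht : t ≠ 0 := mt mem_T.2 n
  have k : ∀ v c, uu t v c ∈ X → ra t v = v := fun v c k => by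
    obtain ⟨d, e⟩ := hZ _ (sq _ k)
    exact sq1 (e.trans (by rw [uu_zero, tt_Z]))
  have k1 : ∀ s u f, uu s u f ∈ X ⊓ Tg → s = 0 ∧ u.1 = 0 ∧ u.2.2.1 = t * u.2.1 := fun s u f m => by
    obtain rfl := mem_T.1 m.2
    have := mul_mem hx m.1
    rw [uu_mul, add_zero, ra0] at this
    exact ⟨rfl, fx1 t ht u (by linear_combination k _ _ this - k _ _ hx - ra_add t v u)⟩
  have h1 := cle' (X := X ⊓ Tg) (fun x hx => hU x hx.1) (fun _ u f => (u.2.1, u.2.2.2, f))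
    fun s u f s' u' f' m m' q => by
      simp only [Prod.mk.injEq] at q
      obtain ⟨a1, a2, a3⟩ := k1 _ _ _ m
      obtain ⟨b1, b2, b3⟩ := k1 _ _ _ m'
      exact ⟨a1.trans b1.symm, ext4 (a2.trans b2.symm) q.1 (by rw [a3, b3, q.1]) q.2.1, q.2.2⟩
  simp only [Nat.card_prod, cardF] at h1
  have := c4 hU
  omega

theorem uf_d {X W : Subgroup P} (hU : ∀ x ∈ X, InU x) (le : W ≤ X) (cX : 512 ≤ Nat.card X)
    (cW : Nat.card W = 4) (el : ∀ w ∈ W, w * w = 1) (cen : ∀ w ∈ W, ∀ x ∈ X, Commute w x)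
    (sq : ∀ x ∈ X, x * x ∈ W) : (∀ w, w ∈ W ↔ InZ w) ∧ ∀ x ∈ X, InT x :=
  de hU le cX cW.ge (by omega) el cen sq

theorem uf_e {X W : Subgroup P} (hU : ∀ x ∈ X, InU x) (le : W ≤ X) (c1 : 4 ≤ Nat.card W)
    (c2 : Nat.card W ≤ 8) (c : 4096 ≤ Nat.card X * Nat.card W) (el : ∀ w ∈ W, w * w = 1)
    (cen : ∀ w ∈ W, ∀ x ∈ X, Commute w x) (sq : ∀ x ∈ X, x * x ∈ W)
    (nW : ∀ p, InU p → ∀ w ∈ W, p * w * p⁻¹ ∈ W) : (∀ w, w ∈ W ↔ InZ w) ∧ ∀ x, x ∈ X ↔ InT x := by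
  obtain ⟨h1, h2⟩ := de hU le (by nlinarith) c1 c2 el cen sq
  have h3 := Nat.card_le_card_of_surjective (fun c : F => (⟨xr 11 c, (h1 _).2 ⟨c, rfl⟩⟩ : W)) fun w => by
    obtain ⟨c, e⟩ := (h1 w).1 w.2
    exact ⟨c, Subtype.ext e.symm⟩
  rw [cardF] at h3
  refine ⟨h1, fun x => ⟨h2 x, ?_⟩⟩
  rintro ⟨v, d, rfl⟩
  exact card_le_T h2 (by nlinarith) v d

theorem uf_f {X Y W : Subgroup P} (hU : ∀ x ∈ X, InU x) (le : W ≤ Y) (le' : Y ≤ X)
    (cW : Nat.card W = 16) (cX : 256 ≤ Nat.card X) (c : 65536 ≤ Nat.card X * Nat.card Y)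
    (el : ∀ w ∈ W, w * w = 1) (cen : ∀ y ∈ Y, ∀ x ∈ X, Commute y x) : False := by
  by_cases hV : ∀ w ∈ W, InV w
  · obtain ⟨d, e, hd, hw⟩ : ∃ d e, d ≠ 0 ∧ uu 0 (0, 0, 0, d) e ∈ W := by
      by_contra n
      push Not at n
      have := cle' (fun x hx => hU x (le' (le hx))) (fun _ _ f => f) fun s u f s' u' f' m m' q => by
        have k : ∀ s u f, uu s u f ∈ W → s = 0 ∧ u = 0 := fun s u f m => by
          obtain ⟨d, e, k⟩ := hV _ m
          rw [← uu_zero] at k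
          obtain rfl : d = 0 := by
            by_contra hd
            exact n d e hd (k ▸ m)
          exact ⟨(uu_inj k).1, (uu_inj k).2.1⟩
        exact ⟨(k _ _ _ m).1.trans (k _ _ _ m').1.symm, (k _ _ _ m).2.trans (k _ _ _ m').2.symm, q⟩
      rw [cardF] at this
      omega
    have hE : ∀ t v c, uu t v c ∈ X → v.1 = 0 := fun t v c k => inE hd (cen _ (le hw) _ k)
    have h1 := cE hU hE
    have h2 : Nat.card Y ≤ 16 := cV (fun x hx => hU x (le' hx)) fun t v c k => by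
      by_contra n
      have := cY hU hE (hE _ _ _ (le' k)) (fun q => n ⟨q.1, hE _ _ _ (le' k), q.2⟩) (cen _ k)
      omega
    nlinarith
  · push Not at hV
    obtain ⟨w, hw, n⟩ := hV
    have h1 := uf_a (hU w (le' (le hw))) (el w hw) n hU fun x hx => (cen w (le hw) x hx).symm
    obtain rfl : Y = X := eq_of_le_of_card_ge le' (by nlinarith)
    have h2 := TT (X := Y ⊓ Tg) (Y := Y ⊓ Tg) inf_le_right inf_le_right fun x hx y hy => cen x hx.1 y hy.1
    have h3 : Nat.card ↥(Y ⊓ Tg) ≤ 64 := by nlinarith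
    have h4 := c4 hU
    rcases twoT hU hU cen with k | k <;> omega

/-- a normal subgroup of `U` of class at most two lies in `T` or in `E` -/
theorem uf_g {X : Subgroup P} (nX : ∀ p, InU p → ∀ x ∈ X, p * x * p⁻¹ ∈ X)
    (cl : ∀ x ∈ X, ∀ y ∈ X, ∀ u ∈ X, Commute ⁅x, y⁆ u) {t : F} {v w : V4} {c d : F} (ht : t ≠ 0)
    (h : uu t v c ∈ X) (hw : w.1 ≠ 0) (h' : tt w d ∈ X) : False := by
  obtain ⟨s, hs⟩ := (by decide +kernel : ∀ t : F, t ≠ 0 → ∀ w : V4, w.1 ≠ 0 → ∃ s : F,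
    b4 (ra t (ra s w + w) + (ra s w + w)) w ≠ 0) t ht w hw
  have m := mul_mem (nX _ ⟨s, 0, 0, (uu_7 s).symm⟩ _ h') h'
  rw [x7_tt, tt_mul] at m
  have k := cl _ h _ m _ h'
  rw [commutatorElement_def, show ∀ y, uu t v c * y * (uu t v c)⁻¹ = xr 7 t * (tt v c * y * (tt v c)⁻¹) * (xr 7 t)⁻¹ from
    fun y => by unfold uu; group, tt_conj, x7_tt, tt_inv, tt_mul, ← uu_zero, ← uu_zero] at k
  exact hs (cmT k)

end Cfsg.Agent.LG
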